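import Cfsg.Agent.Lib.InvChar.HallJankoSylow.Quot
import Cfsg.Agent.S0228
import Mathlib.GroupTheory.SchurZassenhaus
import Mathlib.GroupTheory.NoncommCoprod
import Mathlib.GroupTheory.Transfer

/-!
General facts about centralisers of subgroups of prime order and about groups with a
self-centralising four-group modulo a central subgroup of odd prime order.
-/

set_option autoImplicit false
set_option linter.unusedSectionVars false
set_option linter.style.haveILetI false

namespace CfsgLib.SuzukiType.CentTools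

variable {G : Type*} [Group G] [Finite G]

theorem mem_cent_set {B : Subgroup G} {c : G} :
    c ∈ Subgroup.centralizer (B : Set G) ↔ ∀ b ∈ B, b * c = c * b :=
  Subgroup.mem_centralizer_iff

/-- An element normalising a subgroup of prime order `p`, of order a divisor of a number prime to
`p - 1`, centralises it. -/
theorem cent_of_normalizer {p m : ℕ} [hp : Fact p.Prime] {B : Subgroup G} (hB : Nat.card B = p)
    {n : G} (hn : n ∈ Subgroup.normalizer (B : Set G)) (hm : Nat.Coprime m (p - 1))
    (hnm : n ^ m ∈ Subgroup.centralizer (B : Set G)) : n ∈ Subgroup.centralizer (B : Set G) := by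
  haveI : IsCyclic B := isCyclic_of_prime_card hB
  have hc : Nat.card (MulAut B) = p - 1 := by
    rw [IsCyclic.card_mulAut, hB, Nat.totient_prime hp.out]
  set φ := B.normalizerMonoidHom
  have h1 : φ ⟨n, hn⟩ ^ m = 1 := by
    rw [← map_pow, ← MonoidHom.mem_ker, Subgroup.normalizerMonoidHom_ker, Subgroup.mem_subgroupOf]
    exact hnm
  have h2 : orderOf (φ ⟨n, hn⟩) ∣ Nat.gcd m (p - 1) :=
    Nat.dvd_gcd (orderOf_dvd_of_pow_eq_one h1) (hc ▸ orderOf_dvd_natCard _)
  rw [hm.gcd_eq_one, Nat.dvd_one, orderOf_eq_one_iff, ← MonoidHom.mem_ker,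
    Subgroup.normalizerMonoidHom_ker, Subgroup.mem_subgroupOf] at h2
  exact h2

/-- An element of prime order power normalising a subgroup of order `p` centralises it. -/
theorem cent_of_pgroup {p k : ℕ} [hp : Fact p.Prime] {B : Subgroup G} (hB : Nat.card B = p)
    {n : G} (hn : n ∈ Subgroup.normalizer (B : Set G)) (hk : n ^ p ^ k = 1) :
    n ∈ Subgroup.centralizer (B : Set G) := by
  refine cent_of_normalizer hB hn (Nat.Coprime.pow_left k ?_) (by rw [hk]; exact one_mem _)
  refine (hp.out.coprime_iff_not_dvd).2 fun h => ?_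
  have := hp.out.two_le
  have := Nat.le_of_dvd (by omega) h
  omega

/-- A subgroup of order `p` which is not a Sylow subgroup has a centraliser of order divisible
by `p²`. -/
theorem sq_dvd_cent {p : ℕ} [hp : Fact p.Prime] {B : Subgroup G} (hB : Nat.card B = p)
    (P : Sylow p G) (hBP : B ≤ P) (hne : Nat.card (P : Subgroup G) ≠ p) :
    p * p ∣ Nat.card (Subgroup.centralizer (B : Set G)) := by
  obtain ⟨k, hk⟩ := P.2.exists_card_eq
  have hlt : B < (P : Subgroup G) := lt_of_le_of_ne hBP fun e => hne (by rw [← e, hB])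
  obtain ⟨g, hg, hgB⟩ : ∃ g ∈ (P : Subgroup G) ⊓ Subgroup.normalizer (B : Set G), g ∉ B := by
    haveI := P.2.isNilpotent
    have hnc := Group.normalizerCondition_of_isNilpotent (G := (P : Subgroup G))
    have hlt' : B.subgroupOf (P : Subgroup G) < ⊤ := by
      rw [lt_top_iff_ne_top]
      intro e
      refine hlt.2 fun x hx => ?_
      exact (e ▸ Subgroup.mem_top (⟨x, hx⟩ : (P : Subgroup G)) :
        (⟨x, hx⟩ : (P : Subgroup G)) ∈ B.subgroupOf (P : Subgroup G))
    obtain ⟨g, hg, hgn⟩ := SetLike.exists_of_lt (hnc _ hlt')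
    refine ⟨g, ⟨g.2, Subgroup.mem_normalizer_iff.2 fun b => ⟨fun hb => ?_, fun hb => ?_⟩⟩, hgn⟩
    · exact (Subgroup.mem_normalizer_iff.1 hg ⟨b, hBP hb⟩).1 hb
    · have hbP : b ∈ (P : Subgroup G) := by
        have := mul_mem (mul_mem (inv_mem g.2) (hBP hb)) g.2
        rwa [show (g : G)⁻¹ * ((g : G) * b * (g : G)⁻¹) * g = b by group] at this
      exact (Subgroup.mem_normalizer_iff.1 hg ⟨b, hbP⟩).2 hb
  have hgc : g ∈ Subgroup.centralizer (B : Set G) := cent_of_pgroup hB hg.2 (k := k) (by
    have := Subgroup.orderOf_dvd_natCard _ hg.1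
    rw [hk] at this
    exact orderOf_dvd_iff_pow_eq_one.1 this)
  have hBc : B ≤ Subgroup.centralizer (B : Set G) := fun b hb => by
    haveI : IsCyclic B := isCyclic_of_prime_card hB
    exact mem_cent_set.2 fun a ha => congrArg Subtype.val
      ((IsCyclic.commGroup (α := B)).mul_comm ⟨a, ha⟩ ⟨b, hb⟩)
  set C := (P : Subgroup G) ⊓ Subgroup.centralizer (B : Set G)
  have hBC : B < C := lt_of_le_of_ne (le_inf hBP hBc) fun e => hgB (e ▸ ⟨hg.1, hgc⟩)
  obtain ⟨j, hj⟩ := (P.2.to_le (inf_le_left : C ≤ P)).exists_card_eq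
  refine dvd_trans ?_ (Subgroup.card_dvd_of_le (inf_le_right : C ≤ _))
  have hj2 : 2 ≤ j := by
    by_contra hj'
    have hlt2 : Nat.card B < Nat.card C := by
      refine lt_of_le_of_ne (Subgroup.card_le_of_le hBC.le) fun e => hBC.ne ?_
      exact Subgroup.eq_of_le_of_card_ge hBC.le e.ge
    rw [hB, hj] at hlt2
    have := hp.out.two_le
    interval_cases j <;> simp at hlt2
    omega
  rw [hj, ← pow_two]
  exact pow_dvd_pow p hj2

/-- Subgroups of order `p` are conjugate in a subgroup with order not divisible by `p²`. -/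
theorem conj_of_not_sq_dvd {p : ℕ} [hp : Fact p.Prime] {K A B : Subgroup G} (hA : A ≤ K) (hB : B ≤ K)
    (hcA : Nat.card A = p) (hcB : Nat.card B = p) (h : ¬ p * p ∣ Nat.card K) :
    ∃ c ∈ K, ∀ a ∈ A, c * a * c⁻¹ ∈ B := by
  have mk : ∀ {C : Subgroup G}, C ≤ K → Nat.card C = p →
      ∃ T : Sylow p K, (T : Subgroup K) = C.subgroupOf K := by
    intro C hC hcC
    have hc : Nat.card (C.subgroupOf K) = p := by
      rw [Nat.card_congr (Subgroup.subgroupOfEquivOfLe hC).toEquiv, hcC]
    refine ⟨(IsPGroup.of_card (p := p) (n := 1) (hc.trans (pow_one p).symm)).toSylow fun hd => h ?_, rfl⟩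
    rw [← (C.subgroupOf K).card_mul_index, hc]
    exact Nat.mul_dvd_mul_left p hd
  obtain ⟨TA, hTA⟩ := mk hA hcA
  obtain ⟨TB, hTB⟩ := mk hB hcB
  obtain ⟨c, hc⟩ := MulAction.exists_smul_eq K TA TB
  refine ⟨c, c.2, fun a ha => ?_⟩
  have hm : (⟨a, hA ha⟩ : K) ∈ (TA : Subgroup K) := by rw [hTA]; exact ha
  have hm2 : c * ⟨a, hA ha⟩ * c⁻¹ ∈ (TB : Subgroup K) := by
    rw [← hc]
    exact Subgroup.smul_mem_pointwise_smul _ (MulAut.conj c) _ hm
  rw [hTB] at hm2
  exact hm2

/-- The hypotheses on a subgroup `P` of odd prime order: the four-group generated by the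
commuting involutions `t`, `u` is the centraliser in `C(P)` of each of its involutions, modulo
`P`, and some element of `C(P)` permutes it. -/
structure Four (P : Subgroup G) (p : ℕ) (t u : G) : Prop where
  five_or_seven : p = 5 ∨ p = 7
  card : Nat.card P = p
  t_sq : t * t = 1
  u_sq : u * u = 1
  comm : u * t = t * u
  t_mem : t ∈ Subgroup.centralizer (P : Set G)
  u_mem : u ∈ Subgroup.centralizer (P : Set G)
  t_not : t ∉ P
  u_not : u ∉ P
  tu_not : t * u ∉ P
  cent : ∀ e, e = t ∨ e = u ∨ e = t * u → ∀ a ∈ Subgroup.centralizer (P : Set G),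
    a * e = e * a → ∃ f, (f = 1 ∨ f = t ∨ f = u ∨ f = t * u) ∧ f * a ∈ P
  move : ∃ c ∈ Subgroup.centralizer (P : Set G), c * t * c⁻¹ = u

namespace Four

variable {P : Subgroup G} {p : ℕ} {t u : G} (D : Four P p t u)
include D

theorem prime : p.Prime := by rcases D.five_or_seven with rfl | rfl <;> norm_num

theorem odd : Odd p := by rcases D.five_or_seven with rfl | rfl <;> decide

theorem cyclic_comm {a b : G} (ha : a ∈ P) (hb : b ∈ P) : a * b = b * a := by
  haveI : Fact p.Prime := ⟨D.prime⟩
  haveI : IsCyclic P := isCyclic_of_prime_card D.card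
  exact congrArg Subtype.val ((IsCyclic.commGroup (α := P)).mul_comm ⟨a, ha⟩ ⟨b, hb⟩)

theorem le_cent : P ≤ Subgroup.centralizer (P : Set G) :=
  fun _ hb => mem_cent_set.2 fun _ ha => D.cyclic_comm ha hb

theorem two_mem {x : G} (hx : x ∈ P) (h2 : x * x = 1) : x = 1 := by
  refine orderOf_eq_one_iff.1 ?_
  have h1 : orderOf x ∣ Nat.gcd 2 p := Nat.dvd_gcd (orderOf_dvd_of_pow_eq_one (by rw [pow_two, h2]))
    (D.card ▸ Subgroup.orderOf_dvd_natCard _ hx)
  rwa [(Nat.coprime_two_left.2 D.odd).gcd_eq_one, Nat.dvd_one] at h1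

/-- The order of the centraliser and, when it is not `12 p`, its quotient. -/
theorem cases :
    (Nat.card (Subgroup.centralizer (P : Set G)) = 12 * p ∧
      Nonempty (Subgroup.centralizer (P : Set G) ≃* P × alternatingGroup (Fin 4))) ∨
    Nat.card (Subgroup.centralizer (P : Set G)) = 60 * p := by
  classical
  haveI : Fact p.Prime := ⟨D.prime⟩
  set X := Subgroup.centralizer (P : Set G) with hX
  haveI hn : (P.subgroupOf X).Normal := ⟨fun b hb g => by
    rw [Subgroup.mem_subgroupOf] at hb ⊢
    rw [Subgroup.coe_mul, Subgroup.coe_mul, Subgroup.coe_inv, ← mem_cent_set.1 g.2 _ hb,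
      mul_inv_cancel_right]
    exact hb⟩
  let π := QuotientGroup.mk' (P.subgroupOf X)
  have hπ : ∀ {x : X}, π x = 1 ↔ (x : G) ∈ P := fun {x} =>
    (QuotientGroup.eq_one_iff x).trans Subgroup.mem_subgroupOf
  have hN : Nat.card (P.subgroupOf X) = p :=
    (Nat.card_congr (Subgroup.subgroupOfEquivOfLe D.le_cent).toEquiv).trans D.card
  have hcardX : Nat.card X = Nat.card (X ⧸ P.subgroupOf X) * p := by
    rw [Subgroup.card_eq_card_quotient_mul_card_subgroup (P.subgroupOf X), hN]
  set t' : X := ⟨t, D.t_mem⟩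
  set u' : X := ⟨u, D.u_mem⟩
  have ht1 : π t' ≠ 1 := fun h => D.t_not (hπ.1 h)
  have hu1 : π u' ≠ 1 := fun h => D.u_not (hπ.1 h)
  have htu1 : π t' * π u' ≠ 1 := fun h => D.tu_not (hπ.1 (by rw [map_mul]; exact h : π (t' * u') = 1))
  have ht2 : π t' * π t' = 1 := by
    rw [← map_mul, show t' * t' = 1 from Subtype.ext D.t_sq, map_one]
  have hu2 : π u' * π u' = 1 := by
    rw [← map_mul, show u' * u' = 1 from Subtype.ext D.u_sq, map_one]
  have hcomm : π u' * π t' = π t' * π u' := by
    rw [← map_mul, ← map_mul, show u' * t' = t' * u' from Subtype.ext D.comm]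
  let K : Subgroup (X ⧸ P.subgroupOf X) :=
    { carrier := {1, π t', π u', π t' * π u'}
      one_mem' := Or.inl rfl
      mul_mem' := by
        have a1 : π t' * (π t' * π u') = π u' := by rw [← mul_assoc, ht2, one_mul]
        have a2 : π u' * (π t' * π u') = π t' := by rw [← hcomm, ← mul_assoc, hu2, one_mul]
        have a3 : π t' * π u' * π t' = π u' := by rw [mul_assoc, hcomm, a1]
        have a4 : π t' * π u' * π u' = π t' := by rw [mul_assoc, hu2, mul_one]
        have a5 : π t' * π u' * (π t' * π u') = 1 := by rw [mul_assoc, a2, ht2]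
        rintro a b (rfl | rfl | rfl | rfl) (rfl | rfl | rfl | rfl) <;>
          simp only [one_mul, mul_one, ht2, hu2, hcomm, a1, a2, a3, a4, a5, Set.mem_insert_iff,
            Set.mem_singleton_iff, true_or, or_true]
      inv_mem' := by
        have a5 : (π t' * π u')⁻¹ = π t' * π u' := by
          rw [mul_inv_rev, inv_eq_of_mul_eq_one_right ht2, inv_eq_of_mul_eq_one_right hu2, hcomm]
        rintro a (rfl | rfl | rfl | rfl) <;>
          simp only [inv_one, inv_eq_of_mul_eq_one_right ht2, inv_eq_of_mul_eq_one_right hu2, a5,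
            Set.mem_insert_iff, Set.mem_singleton_iff, true_or, or_true] }
  have hK4 : Nat.card K = 4 := by
    have e1 : π t' ≠ π u' := fun e => htu1 (by rw [← e, ht2])
    have e2 : π t' ≠ π t' * π u' := fun e => hu1 (mul_eq_left.1 e.symm)
    have e3 : π u' ≠ π t' * π u' := fun e => ht1 (mul_eq_right.1 e.symm)
    have h1 : Nat.card (({1, π t', π u', π t' * π u'} : Set (X ⧸ P.subgroupOf X))) = 4 := by
      rw [Nat.card_coe_set_eq, Set.ncard_insert_of_notMem, Set.ncard_insert_of_notMem,
        Set.ncard_insert_of_notMem, Set.ncard_singleton]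
      · simp only [Set.mem_singleton_iff]; exact e3
      · simp only [Set.mem_insert_iff, Set.mem_singleton_iff, not_or]; exact ⟨e1, e2⟩
      · simp only [Set.mem_insert_iff, Set.mem_singleton_iff, not_or]
        exact ⟨fun e => ht1 e.symm, fun e => hu1 e.symm, fun e => htu1 e.symm⟩
    exact h1
  have hKsq : ∀ x ∈ K, x * x = 1 := by
    rintro x (rfl | rfl | rfl | rfl)
    · exact one_mul 1
    · exact ht2
    · exact hu2
    · rw [mul_assoc, ← mul_assoc (π u'), hcomm, mul_assoc, hu2, mul_one, ht2]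
  have hcent : ∀ (e : X), ((e : G) = t ∨ (e : G) = u ∨ (e : G) = t * u) →
      InvChar.HJSylow.cent (π e) = K := by
    intro e he
    have he2 : (e : G) * e = 1 := by
      rcases he with h | h | h <;> rw [h]
      · exact D.t_sq
      · exact D.u_sq
      · rw [mul_assoc, ← mul_assoc u, D.comm, mul_assoc, D.u_sq, mul_one, D.t_sq]
    ext x
    constructor
    · intro hx
      obtain ⟨a, rfl⟩ : ∃ a, π a = x := QuotientGroup.mk'_surjective _ x
      have h1 : π (a * e * a⁻¹ * e⁻¹) = 1 := by
        rw [map_mul, map_mul, map_mul, map_inv, map_inv, InvChar.HJSylow.mem_cent.1 hx]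
        group
      have h2 := hπ.1 h1
      simp only [Subgroup.coe_mul, Subgroup.coe_inv] at h2
      set b := (a : G) * e * (a : G)⁻¹ * (e : G)⁻¹
      have hae : (a : G) * e * (a : G)⁻¹ = b * e := by simp [b]
      have hbb : b * b = 1 := by
        have h3 : b * (e : G) * (b * (e : G)) = 1 := by
          rw [← hae, show (a : G) * e * (a : G)⁻¹ * ((a : G) * e * (a : G)⁻¹) =
            (a : G) * (e * e) * (a : G)⁻¹ by group, he2]
          group
        rwa [mul_assoc, ← mul_assoc (e : G), ← mem_cent_set.1 e.2 b h2, mul_assoc b, he2, mul_one]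
          at h3
      have hcm : (a : G) * e = e * a := by
        rw [D.two_mem h2 hbb, one_mul] at hae
        exact mul_inv_eq_iff_eq_mul.1 hae
      obtain ⟨f, hf, hfa⟩ := D.cent _ he _ a.2 hcm
      have hfX : f ∈ X := by
        rcases hf with rfl | rfl | rfl | rfl
        · exact one_mem _
        · exact D.t_mem
        · exact D.u_mem
        · exact mul_mem D.t_mem D.u_mem
      have hff : f * f = 1 := by
        rcases hf with rfl | rfl | rfl | rfl
        · exact one_mul 1
        · exact D.t_sq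
        · exact D.u_sq
        · rw [mul_assoc, ← mul_assoc u, D.comm, mul_assoc, D.u_sq, mul_one, D.t_sq]
      have h4 : π a = π ⟨f, hfX⟩ := by
        have : π (⟨f, hfX⟩ * a) = 1 := hπ.2 hfa
        rw [map_mul] at this
        rw [← one_mul (π a), ← map_one π, ← show (⟨f, hfX⟩ : X) * ⟨f, hfX⟩ = 1 from Subtype.ext hff,
          map_mul, mul_assoc, this, mul_one]
      show π a ∈ K
      rw [h4]
      rcases hf with rfl | rfl | rfl | rfl
      · exact Or.inl (map_one π)
      · exact Or.inr (Or.inl rfl)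
      · exact Or.inr (Or.inr (Or.inl rfl))
      · exact Or.inr (Or.inr (Or.inr (map_mul π t' u')))
    · intro hx
      refine InvChar.HJSylow.mem_cent.2 ?_
      have he' : π e ∈ K := by
        rcases he with h | h | h
        · exact Or.inr (Or.inl (congrArg π (Subtype.ext h)))
        · exact Or.inr (Or.inr (Or.inl (congrArg π (Subtype.ext h))))
        · refine Or.inr (Or.inr (Or.inr ?_))
          rw [← map_mul]
          exact congrArg π (Subtype.ext h)
      have h3 := hKsq _ (K.mul_mem hx he')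
      calc x * π e = (x * π e)⁻¹ := eq_inv_of_mul_eq_one_left h3
        _ = (π e)⁻¹ * x⁻¹ := mul_inv_rev _ _
        _ = π e * x := by
          rw [inv_eq_of_mul_eq_one_right (hKsq _ he'), inv_eq_of_mul_eq_one_right (hKsq _ hx)]
  have het : InvChar.HJSylow.cent (π t') = K := hcent t' (Or.inl rfl)
  have hord : orderOf (π t') = 2 := orderOf_eq_prime (by rw [pow_two]; exact ht2) ht1
  have hall : ∀ c ∈ InvChar.HJSylow.cent (π t'), c ≠ 1 →
      InvChar.HJSylow.cent c = InvChar.HJSylow.cent (π t') := by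
    intro c hc hc1
    rw [het] at hc ⊢
    rcases hc with rfl | rfl | rfl | rfl
    · exact absurd rfl hc1
    · exact het
    · exact hcent u' (Or.inr (Or.inl rfl))
    · rw [← map_mul]; exact hcent (t' * u') (Or.inr (Or.inr rfl))
  obtain ⟨c, hc, hmv⟩ := D.move
  have hnc : π t' * π ⟨c, hc⟩ ≠ π ⟨c, hc⟩ * π t' := fun e => by
    have h1 : π ⟨c, hc⟩ * π t' * (π ⟨c, hc⟩)⁻¹ = π u' := by
      rw [← map_inv, ← map_mul, ← map_mul]
      exact congrArg π (Subtype.ext hmv)
    rw [← e, mul_inv_cancel_right] at h1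
    exact htu1 (by rw [h1, hu2])
  rcases InvChar.HJSylow.klein_cases hord (by rw [het]; exact hK4)
    (fun x hx => by rw [pow_two]; exact hKsq x (het ▸ hx)) hall with h4 | h12 | ⟨⟨f⟩⟩
  · exfalso
    refine hnc (InvChar.HJSylow.mem_cent.1 ?_).symm
    rw [Subgroup.eq_top_of_card_eq (InvChar.HJSylow.cent (π t')) (by rw [het, hK4, h4])]
    exact Subgroup.mem_top _
  · left
    have hX12 : Nat.card X = 12 * p := by rw [hcardX, h12]
    refine ⟨hX12, ?_⟩
    obtain ⟨e4⟩ := Cfsg.Agent.S0228.aux (G := X ⧸ P.subgroupOf X) h12 fun w hw hwc => by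
      have hwt : w ∈ InvChar.HJSylow.cent (π t') :=
        InvChar.HJSylow.mem_cent.2 (Subgroup.mem_center_iff.1 hwc (π t')).symm
      have hw1 : w ≠ 1 := fun e => by rw [e, orderOf_one] at hw; omega
      have htop : InvChar.HJSylow.cent (π t') = ⊤ := by
        rw [← hall w hwt hw1, eq_top_iff]
        exact fun g _ => InvChar.HJSylow.mem_cent.2 (Subgroup.mem_center_iff.1 hwc g)
      refine hnc (InvChar.HJSylow.mem_cent.1 ?_).symm
      rw [htop]
      exact Subgroup.mem_top _
    have hidx : (P.subgroupOf X).index = 12 := h12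
    have hcop : Nat.Coprime (Nat.card (P.subgroupOf X)) (P.subgroupOf X).index := by
      rw [hN, hidx]
      rcases D.five_or_seven with rfl | rfl <;> norm_num
    obtain ⟨L, hL⟩ := Subgroup.exists_right_complement'_of_coprime hcop
    let eL : L ≃* alternatingGroup (Fin 4) := hL.symm.QuotientMulEquiv.symm.trans e4
    let m : P.subgroupOf X × L →* X := (P.subgroupOf X).subtype.noncommCoprod L.subtype
      fun b l => Subtype.ext (mem_cent_set.1 (l : X).2 _ b.2)
    have hm : Function.Bijective m := hL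
    exact ⟨((MulEquiv.ofBijective m hm).symm).trans
      (MulEquiv.prodCongr (Subgroup.subgroupOfEquivOfLe D.le_cent) eL)⟩
  · right
    rw [hcardX, Nat.card_congr f.toEquiv, InvChar.HJSylow.card_alt_five]

end Four

end CfsgLib.SuzukiType.CentTools
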