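import Cfsg.Agent.Lib.SuzukiType.FiveModel
import Cfsg.Agent.Lib.SuzukiType.CentTools

/-!
An element of order five of the centraliser of `z`, its centraliser there, and an element of that
centraliser acting on it as squaring.
-/

set_option autoImplicit false
set_option linter.unusedSectionVars false
set_option linter.style.haveILetI false
set_option maxRecDepth 100000
set_option synthInstance.maxSize 2000

namespace CfsgLib.SuzukiType

open CentTools

variable {G : Type*} [Group G] [Finite G]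
variable {z : G} {Qf : G → Subgroup G} {θ : G → V} {ρ : G → O} {J : Subgroup O}

/-- An element `p` of order five of `C(z)` over `g5` and an element acting on it as squaring. -/
structure FiveData (z : G) (ρ : G → O) (p γ : G) : Prop where
  pz : p * z = z * p
  pρ : ρ p = g5
  p5 : p ^ 5 = 1
  γz : γ * z = z * γ
  γp : γ * p * γ⁻¹ = p * p

namespace Setting

variable (S : Setting z Qf θ ρ J)
include S

theorem card_Qf : Nat.card (Qf z) = 128 := by
  let f : Qf z →* Multiplicative V :=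
    { toFun := fun a => Multiplicative.ofAdd (θ a)
      map_one' := by
        show Multiplicative.ofAdd (θ ((1 : Qf z) : G)) = 1
        rw [Subgroup.coe_one, S.θ_one, ofAdd_zero]
      map_mul' := fun a b => by
        rw [← ofAdd_add, ← S.θ_mul a a.2 b b.2]; rfl }
  have hrange : f.range = ⊤ := MonoidHom.range_eq_top.2 fun v => by
    obtain ⟨a, ha, e⟩ := S.θ_surj (Multiplicative.toAdd v)
    exact ⟨⟨a, ha⟩, congrArg Multiplicative.ofAdd e⟩
  have hker : Nat.card f.ker = 2 := by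
    have h1 : (f.ker : Set (Qf z)) = {1, ⟨z, S.z_mem⟩} := by
      ext a
      simp only [SetLike.mem_coe, MonoidHom.mem_ker, Set.mem_insert_iff, Set.mem_singleton_iff]
      show Multiplicative.ofAdd (θ a) = 1 ↔ _
      rw [ofAdd_eq_one, S.θ_ker a a.2, Subtype.ext_iff, Subtype.ext_iff, Subgroup.coe_one]
    have h2 : Nat.card (f.ker : Set (Qf z)) = 2 := by
      rw [h1, Nat.card_coe_set_eq, Set.ncard_pair]
      exact fun e => S.z_ne (congrArg Subtype.val e).symm
    exact h2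
  have hV : Nat.card (Multiplicative V) = 64 := by
    show Nat.card V = 64
    rw [Nat.card_eq_fintype_card]; decide
  rw [← f.ker.card_mul_index, hker, Subgroup.index_ker, hrange, Subgroup.card_top, hV]

theorem card_cent : Nat.card (Subgroup.centralizer ({z} : Set G)) = 128 * 25920 := by
  set C := Subgroup.centralizer ({z} : Set G)
  have hm : ∀ c : C, (c : G) * z = z * c := fun c => Subgroup.mem_centralizer_singleton_iff.1 c.2
  let f : C →* O :=
    { toFun := fun c => ρ c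
      map_one' := S.ρ_one
      map_mul' := fun a b => S.ρ_mul (hm a) (hm b) }
  have hr : f.range = J := by
    ext j
    refine ⟨fun ⟨c, hc⟩ => hc ▸ S.ρ_mem _ (hm c), fun hj => ?_⟩
    obtain ⟨c, hc, e⟩ := S.ρ_surj j hj
    exact ⟨⟨c, Subgroup.mem_centralizer_singleton_iff.2 hc⟩, e⟩
  have hk : f.ker = (Qf z).subgroupOf C := Subgroup.ext fun c =>
    (S.ρ_ker _ (hm c)).trans Subgroup.mem_subgroupOf.symm
  have hle : Qf z ≤ C := fun a ha => Subgroup.mem_centralizer_singleton_iff.2 (S.comm_z ha)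
  have hJ : 2 * Nat.card J = 51840 := S.half
  rw [← f.ker.card_mul_index, Subgroup.index_ker, hr, hk,
    Nat.card_congr (Subgroup.subgroupOfEquivOfLe hle).toEquiv, S.card_Qf]
  omega

theorem not_25 {K : Subgroup G} (hK : K ≤ Subgroup.centralizer ({z} : Set G)) :
    ¬ 5 * 5 ∣ Nat.card K := fun h => by
  have := h.trans (Subgroup.card_dvd_of_le hK)
  rw [S.card_cent] at this
  norm_num at this

theorem Qf_pow_four {a : G} (ha : a ∈ Qf z) : a ^ 4 = 1 := by
  rw [show a ^ 4 = (a * a) * (a * a) by simp only [pow_succ, pow_zero, one_mul, mul_assoc],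
    S.sq_eq ha, ← zp_add S.z_sq, CharTwo.add_self_eq_zero, zp_zero]

/-- The elements over the subgroup generated by `g5`. -/
def five_pre : Subgroup G where
  carrier := {c | c * z = z * c ∧ ∃ j : ℕ, ρ c = g5 ^ j}
  one_mem' := ⟨by simp, 0, by rw [S.ρ_one, pow_zero]⟩
  mul_mem' := by
    rintro a b ⟨ha, i, hi⟩ ⟨hb, j, hj⟩
    exact ⟨comm_mul ha hb, i + j, by rw [S.ρ_mul ha hb, hi, hj, pow_add]⟩
  inv_mem' := by
    rintro a ⟨ha, i, hi⟩
    refine ⟨comm_inv ha, 4 * i, ?_⟩
    rw [S.ρ_inv ha, hi]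
    refine inv_eq_of_mul_eq_one_right ?_
    rw [← pow_add, show i + 4 * i = 5 * i by ring, pow_mul, g5_pow_five, one_pow]

theorem exists_five : ∃ p γ, FiveData z ρ p γ := by
  obtain ⟨c, hc, hρc⟩ := S.ρ_surj g5 S.half.g5_mem
  have hpow : ∀ i : ℕ, c ^ i * z = z * c ^ i ∧ ρ (c ^ i) = g5 ^ i := by
    intro i
    induction i with
    | zero => exact ⟨by simp, by rw [pow_zero, pow_zero, S.ρ_one]⟩
    | succ i ih => exact ⟨by rw [pow_succ]; exact comm_mul ih.1 hc, by
        rw [pow_succ, pow_succ, S.ρ_mul ih.1 hc, ih.2, hρc]⟩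
  set p := c ^ 16 with hp
  have hpz : p * z = z * p := (hpow 16).1
  have hpρ : ρ p = g5 := by
    rw [hp, (hpow 16).2, show 16 = 5 * 3 + 1 from rfl, pow_succ, pow_mul, g5_pow_five, one_pow, one_mul]
  have hp5 : p ^ 5 = 1 := by
    have hm : c ^ 5 ∈ Qf z := (S.ρ_ker _ (hpow 5).1).1 (by rw [(hpow 5).2, g5_pow_five])
    rw [hp, ← pow_mul, show 16 * 5 = 5 * (4 * 4) from rfl, pow_mul, pow_mul, S.Qf_pow_four hm, one_pow]
  have hord : orderOf p = 5 := by
    haveI : Fact (Nat.Prime 5) := ⟨Nat.prime_five⟩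
    refine orderOf_eq_prime hp5 fun e => g5_ne ?_
    rw [← hpρ, e, S.ρ_one]
  obtain ⟨d, hd, hρd⟩ := S.ρ_surj g4 S.half.g4_mem
  have hdp : d * p * d⁻¹ * z = z * (d * p * d⁻¹) :=
    comm_mul (comm_mul hd hpz) (comm_inv hd)
  have hρdp : ρ (d * p * d⁻¹) = g5 * g5 := by rw [S.ρ_conj hd hpz, hρd, hpρ, g4_g5]
  haveI : Fact (Nat.Prime 5) := ⟨Nat.prime_five⟩
  obtain ⟨e, he, hec⟩ := conj_of_not_sq_dvd (p := 5) (K := S.five_pre)
    (A := Subgroup.zpowers (d * p * d⁻¹)) (B := Subgroup.zpowers p)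
    (Subgroup.zpowers_le.2 ⟨hdp, 2, by rw [hρdp, pow_two]⟩)
    (Subgroup.zpowers_le.2 ⟨hpz, 1, by rw [hpρ, pow_one]⟩)
    (by rw [Nat.card_zpowers, InvChar.HJSylow.orderOf_conj', hord])
    (by rw [Nat.card_zpowers, hord])
    (S.not_25 fun a ha => Subgroup.mem_centralizer_singleton_iff.2 ha.1)
  obtain ⟨i, hi⟩ : ∃ i : ℕ, p ^ i = e * (d * p * d⁻¹) * e⁻¹ :=
    mem_powers_iff_mem_zpowers.2 (hec _ (Subgroup.mem_zpowers _))
  refine ⟨p, e * d, ⟨hpz, hpρ, hp5, comm_mul he.1 hd, ?_⟩⟩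
  obtain ⟨hez, j, hj⟩ := he
  have h1 : ρ (p ^ i) = g5 * g5 := by
    rw [hi, S.ρ_conj hez hdp, hρdp, hj, ← pow_two,
      ((Commute.refl g5).pow_pow j 2).eq, mul_inv_cancel_right]
  have hpp : ∀ i : ℕ, p ^ i * z = z * p ^ i ∧ ρ (p ^ i) = g5 ^ i := by
    intro i
    induction i with
    | zero => exact ⟨by simp, by rw [pow_zero, pow_zero, S.ρ_one]⟩
    | succ i ih => exact ⟨by rw [pow_succ]; exact comm_mul ih.1 hpz, by
        rw [pow_succ, pow_succ, S.ρ_mul ih.1 hpz, ih.2, hpρ]⟩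
  rw [(hpp i).2, ← pow_two, pow_eq_pow_iff_modEq] at h1
  have h5 : orderOf g5 = 5 := orderOf_eq_prime g5_pow_five g5_ne
  rw [h5] at h1
  rw [show e * d * p * (e * d)⁻¹ = e * (d * p * d⁻¹) * e⁻¹ by group, ← hi, ← pow_two,
    pow_eq_pow_iff_modEq, hord]
  exact h1

variable {p γ : G} (D : FiveData z ρ p γ)
include D

theorem five_order : orderOf p = 5 :=
  haveI : Fact (Nat.Prime 5) := ⟨Nat.prime_five⟩
  orderOf_eq_prime D.p5 fun e => g5_ne (by rw [← D.pρ, e, S.ρ_one])

theorem five_card : Nat.card (Subgroup.zpowers p) = 5 := by rw [Nat.card_zpowers, S.five_order D]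

theorem five_pow (i : ℕ) : p ^ i * z = z * p ^ i ∧ ρ (p ^ i) = g5 ^ i := by
  induction i with
  | zero => exact ⟨by simp, by rw [pow_zero, pow_zero, S.ρ_one]⟩
  | succ i ih => exact ⟨by rw [pow_succ]; exact comm_mul ih.1 D.pz, by
      rw [pow_succ, pow_succ, S.ρ_mul ih.1 D.pz, ih.2, D.pρ]⟩

/-- An element of the centraliser of `z` centralising `p` is a power of `p` times an element of
`Qf z` centralising `p`. -/
theorem five_split {c : G} (hc : c * z = z * c) (hcp : c * p = p * c) :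
    ∃ i : ℕ, ∃ q ∈ Qf z, q * p = p * q ∧ c = p ^ i * q := by
  obtain ⟨i, hi⟩ := S.half.cent_g5 (S.ρ_mem c hc) (by
    rw [← D.pρ, ← S.ρ_mul hc D.pz, hcp, S.ρ_mul D.pz hc])
  obtain ⟨hiz, hiρ⟩ := S.five_pow D i
  refine ⟨i, (p ^ i)⁻¹ * c, (S.ρ_ker _ (comm_mul (comm_inv hiz) hc)).1 ?_, ?_, by group⟩
  · rw [S.ρ_mul (comm_inv hiz) hc, S.ρ_inv hiz, hiρ, hi, inv_mul_cancel]
  · exact comm_mul (comm_inv (Commute.pow_self p i).eq) hcp

theorem five_fix {q : G} (hq : q ∈ Qf z) : q * p = p * q ↔ g5F (θ q) = θ q := by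
  have he : θ (p * q * p⁻¹) = g5F (θ q) := by
    rw [S.ρ_act p D.pz q hq, D.pρ, ap_g5]
  constructor
  · intro h
    rw [← he, conj_fix_iff.2 h.symm]
  · intro h
    rcases S.eq_or_of_θ (S.conj_mem_Q D.pz hq) hq (he.trans h) with e | e
    · exact (conj_fix_iff.1 e).symm
    · exfalso
      have hzz : p * z * p⁻¹ = z := conj_fix_iff.2 D.pz
      have h5 : p ^ 5 * q * (p ^ 5)⁻¹ = z * (z * (z * (z * (z * q)))) := by
        have hs : ∀ a, p * (z * a) * p⁻¹ = z * (p * a * p⁻¹) := fun a => by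
          rw [show p * (z * a) * p⁻¹ = (p * z * p⁻¹) * (p * a * p⁻¹) by group, hzz]
        calc p ^ 5 * q * (p ^ 5)⁻¹ = p * (p * (p * (p * (p * q * p⁻¹) * p⁻¹) * p⁻¹) * p⁻¹) * p⁻¹ := by
              simp only [pow_succ, pow_zero, one_mul, mul_inv_rev, mul_assoc]
          _ = _ := by simp only [e, hs]
      rw [D.p5, one_mul, inv_one, mul_one, ← mul_assoc z z, S.z_sq, one_mul, ← mul_assoc z z,
        S.z_sq, one_mul] at h5
      exact S.z_ne (right_eq_mul.1 h5)

theorem five_fix_cases {q : G} (hq : q ∈ Qf z) (hqp : q * p = p * q) :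
    θ q = 0 ∨ θ q = eV ∨ θ q = fV ∨ θ q = eV + fV :=
  g5F_fixed _ ((S.five_fix D hq).1 hqp)

/-- The elements of `Qf z` centralising `p`. -/
theorem five_fixed_card : Nat.card ↥(Qf z ⊓ Subgroup.centralizer ({p} : Set G)) = 8 := by
  classical
  choose L hL hLθ using S.θ_surj
  let f : (ZMod 2 × ZMod 2) × ZMod 2 → ↥(Qf z ⊓ Subgroup.centralizer ({p} : Set G)) := fun a =>
    ⟨zp z a.2 * L (a.1.1 • eV + a.1.2 • fV), (Qf z).mul_mem (zp_mem S.z_mem _) (hL _),
      Subgroup.mem_centralizer_singleton_iff.2 (by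
        refine (S.five_fix D ((Qf z).mul_mem (zp_mem S.z_mem _) (hL _))).2 ?_
        rw [S.θ_mul _ (zp_mem S.z_mem _) _ (hL _), hLθ]
        have : θ (zp z a.2) = 0 := by
          rcases z2_cases a.2 with e | e <;> rw [e]
          · rw [zp_zero, S.θ_one]
          · rw [zp_one, S.θ_z]
        rw [this, zero_add]
        have : ∀ a b : ZMod 2, g5F (a • eV + b • fV) = a • eV + b • fV := by decide +kernel
        exact this _ _)⟩
  have hθ : ∀ a, θ (f a : G) = a.1.1 • eV + a.1.2 • fV := fun a => by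
    show θ (zp z a.2 * L _) = _
    rw [S.θ_mul _ (zp_mem S.z_mem _) _ (hL _), hLθ]
    rcases z2_cases a.2 with e | e <;> rw [e]
    · rw [zp_zero, S.θ_one, zero_add]
    · rw [zp_one, S.θ_z, zero_add]
  have hf : Function.Bijective f := by
    constructor
    · rintro ⟨⟨a, b⟩, i⟩ ⟨⟨a', b'⟩, i'⟩ e
      have e1 := (hθ _).symm.trans ((congrArg (fun v => θ (Subtype.val v)) e).trans (hθ _))
      have inj : ∀ a b a' b' : ZMod 2, a • eV + b • fV = a' • eV + b' • fV → a = a' ∧ b = b' := by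
        decide +kernel
      obtain ⟨rfl, rfl⟩ := inj _ _ _ _ e1
      have e2 : zp z i * L (a • eV + b • fV) = zp z i' * L (a • eV + b • fV) := congrArg Subtype.val e
      have e3 := mul_right_cancel e2
      rcases z2_cases i with rfl | rfl <;> rcases z2_cases i' with rfl | rfl
      · rfl
      · exact absurd (by simpa using e3.symm) S.z_ne
      · exact absurd (by simpa using e3) S.z_ne
      · rfl
    · rintro ⟨q, hq, hqp⟩
      obtain ⟨a, b, hab⟩ : ∃ a b : ZMod 2, θ q = a • eV + b • fV := by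
        rcases S.five_fix_cases D hq (Subgroup.mem_centralizer_singleton_iff.1 hqp) with e | e | e | e
        · exact ⟨0, 0, by rw [e]; simp⟩
        · exact ⟨1, 0, by rw [e]; simp⟩
        · exact ⟨0, 1, by rw [e]; simp⟩
        · exact ⟨1, 1, by rw [e]; simp⟩
      rcases S.eq_or_of_θ hq (hL (a • eV + b • fV)) (by rw [hLθ, hab]) with e | e
      · exact ⟨((a, b), 0), Subtype.ext (by show zp z 0 * _ = q; rw [zp_zero, one_mul]; exact e.symm)⟩
      · exact ⟨((a, b), 1), Subtype.ext (by show zp z 1 * _ = q; rw [zp_one]; exact e.symm)⟩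
  rw [← Nat.card_congr (Equiv.ofBijective f hf)]
  simp only [Nat.card_prod, Nat.card_zmod]

end Setting

end CfsgLib.SuzukiType
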