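import Cfsg.Agent.S2476
import Cfsg.Agent.Lib.InvChar.SymThreeModel
import Cfsg.Agent.Lib.InvChar.PSLThreeFourFacts
import Cfsg.Agent.Lib.CNStruct.PSLFacts

/-!
Centralisers and normalisers of subgroups of order five and seven in a copy of `PSL₃(4)`, and the
averaging of an involution over a coset.
-/

set_option autoImplicit false
set_option linter.unusedSectionVars false

namespace CfsgLib.SuzukiType

section

variable {L : Type*} [Group L] [Finite L] {F : Type} [Field F] [Fintype F]

theorem orders_pslFour (hF : Fintype.card F = 4)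
    (e : L ≃* Matrix.ProjectiveSpecialLinearGroup (Fin 3) F) (a : L) :
    orderOf a ∣ 7 ∨ orderOf a ∣ 5 ∨ orderOf a ∣ 3 ∨ orderOf a ∣ 4 := by
  haveI : Fact (Nat.Prime 2) := ⟨Nat.prime_two⟩
  have hc : ringChar F = 2 := by
    have := FiniteField.even_card_iff_char_two (F := F)
    rw [this, hF]
  haveI : CharP F 2 := by rw [← hc]; exact ringChar.charP F
  have hm : orderOf (e a) ∈
      Set.range (orderOf : Matrix.ProjectiveSpecialLinearGroup (Fin 3) F → ℕ) := ⟨e a, rfl⟩
  rw [Cfsg.Agent.S2476.result 2, Set.mem_ofPred_eq, hF, MulEquiv.orderOf_eq] at hm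
  norm_num at hm
  rcases hm with h | h | h | h | h
  · exact Or.inl h
  · exact Or.inr (Or.inl h)
  · exact Or.inr (Or.inr (Or.inl h))
  · exact Or.inr (Or.inr (Or.inr (h.trans (by norm_num))))
  · exact Or.inr (Or.inr (Or.inr h))

theorem card_pslFour (hF : Fintype.card F = 4)
    (e : L ≃* Matrix.ProjectiveSpecialLinearGroup (Fin 3) F) : Nat.card L = 20160 := by
  rw [Nat.card_congr e.toEquiv, InvChar.SymThree.card_PSL_three_four hF]

/-- A subgroup of order five or seven is its own centraliser and a Sylow subgroup. -/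
theorem centralizer_of_card (hF : Fintype.card F = 4)
    (e : L ≃* Matrix.ProjectiveSpecialLinearGroup (Fin 3) F) {p : ℕ} (hp : p = 5 ∨ p = 7)
    {P : Subgroup L} (hP : Nat.card P = p) :
    Subgroup.centralizer (P : Set L) = P ∧ ∃ T : Sylow p L, (T : Subgroup L) = P := by
  have hpp : p.Prime := by rcases hp with rfl | rfl <;> norm_num
  haveI : Fact p.Prime := ⟨hpp⟩
  have hfac : (Nat.card L).factorization p = 1 := by
    rw [card_pslFour hF e]
    rcases hp with rfl | rfl
    · rw [show 20160 = 5 ^ 1 * 4032 by norm_num, Nat.factorization_mul_apply_of_coprime (by norm_num),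
        Nat.prime_five.factorization_pow, Finsupp.single_eq_same,
        Nat.factorization_eq_zero_of_not_dvd (by norm_num)]
    · rw [show 20160 = 7 ^ 1 * 2880 by norm_num, Nat.factorization_mul_apply_of_coprime (by norm_num),
        (by norm_num : Nat.Prime 7).factorization_pow, Finsupp.single_eq_same,
        Nat.factorization_eq_zero_of_not_dvd (by norm_num)]
  let T : Sylow p L := Sylow.ofCard P (by rw [hP, hfac, pow_one])
  have hT : (T : Subgroup L) = P := rfl
  refine ⟨?_, T, hT⟩
  obtain ⟨a, haP, ha⟩ : ∃ a ∈ P, orderOf a = p := by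
    obtain ⟨a, ha⟩ := exists_prime_orderOf_dvd_card' (G := P) p (by rw [hP])
    exact ⟨a, a.2, by rw [← ha, Subgroup.orderOf_coe]⟩
  have hord : ∀ b : L, a * b = b * a → orderOf b ∣ p := by
    intro b hb
    by_contra hnd
    obtain ⟨r, hr, hrb, hrp⟩ : ∃ r, r.Prime ∧ r ∣ orderOf b ∧ r ≠ p := by
      by_contra hh
      push Not at hh
      obtain ⟨m, hm⟩ : ∃ m, orderOf b = p ^ m :=
        ⟨_, Nat.eq_prime_pow_of_unique_prime_dvd (orderOf_pos b).ne' fun {d} hd hdd => hh d hd hdd⟩
      have h1 : orderOf b ∣ 7 ∨ orderOf b ∣ 5 ∨ orderOf b ∣ 3 ∨ orderOf b ∣ 4 :=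
        orders_pslFour hF e b
      apply hnd
      rcases m with _ | _ | m
      · rw [hm, pow_zero]; exact one_dvd p
      · rw [hm, pow_one]
      · exfalso
        have hle : p ^ 2 ∣ orderOf b := hm ▸ pow_dvd_pow p (by omega)
        have h25 : 25 ≤ p ^ 2 := by rcases hp with rfl | rfl <;> norm_num
        rcases h1 with h | h | h | h <;>
          have := Nat.le_of_dvd (by norm_num) (hle.trans h) <;> omega
    set b' := b ^ (orderOf b / r) with hb'
    have hb'o : orderOf b' = r := orderOf_pow_orderOf_div (orderOf_pos b).ne' hrb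
    have hc : Commute a b' := (show Commute a b from hb).pow_right _
    have hord := hc.orderOf_mul_eq_mul_orderOf_of_coprime
      (by rw [ha, hb'o]; exact (Nat.coprime_primes hpp hr).2 hrp.symm)
    rw [ha, hb'o] at hord
    have h2 := orders_pslFour hF e (a * b')
    rw [hord] at h2
    have hr2 := hr.two_le
    rcases hp with rfl | rfl
    · rcases h2 with h | h | h | h <;> have := Nat.le_of_dvd (by norm_num) h <;> omega
    · rcases h2 with h | h | h | h <;> have := Nat.le_of_dvd (by norm_num) h <;> omega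
  refine T.is_maximal' ?_ (fun b hb => ?_) |>.trans hT
  · rw [IsPGroup.iff_orderOf]
    intro b
    rcases (Nat.dvd_prime hpp).1
      (hord (b : L) (Subgroup.mem_centralizer_iff.1 b.2 a haP)) with h | h
    · exact ⟨0, by rw [← Subgroup.orderOf_coe, h, pow_zero]⟩
    · exact ⟨1, by rw [← Subgroup.orderOf_coe, h, pow_one]⟩
  · rw [hT] at hb
    haveI : IsCyclic P := isCyclic_of_prime_card hP
    letI : CommGroup P := IsCyclic.commGroup
    exact Subgroup.mem_centralizer_iff.2 fun c hc =>
      congrArg Subtype.val (mul_comm (⟨c, hc⟩ : P) ⟨b, hb⟩)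

/-- The index of a subgroup of order five or seven in its normaliser. -/
theorem normalizer_of_card (hF : Fintype.card F = 4)
    (e : L ≃* Matrix.ProjectiveSpecialLinearGroup (Fin 3) F) {p : ℕ} (hp : p = 5 ∨ p = 7)
    {P : Subgroup L} (hP : Nat.card P = p) :
    ∃ i, (i = 2 ∧ p = 5 ∨ i = 3 ∧ p = 7) ∧
      P.relIndex (Subgroup.normalizer (P : Set L)) = i := by
  have hpp : p.Prime := by rcases hp with rfl | rfl <;> norm_num
  haveI : Fact p.Prime := ⟨hpp⟩
  obtain ⟨hC, T, hT⟩ := centralizer_of_card hF e hp hP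
  set N := Subgroup.normalizer (P : Set L) with hN
  haveI : IsCyclic P := isCyclic_of_prime_card hP
  have hd : P.relIndex N ∣ p - 1 := by
    have hker : Nat.card (Subgroup.normalizerMonoidHom P).ker = p := by
      rw [Subgroup.normalizerMonoidHom_ker, hC, ← hP]
      exact Nat.card_congr (Subgroup.subgroupOfEquivOfLe Subgroup.le_normalizer).toEquiv
    have h1 : Nat.card (Subgroup.normalizerMonoidHom P).range = P.relIndex N := by
      rw [← Subgroup.index_ker, Subgroup.normalizerMonoidHom_ker, hC]
      rfl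
    rw [← h1]
    refine (Subgroup.card_subgroup_dvd_card _).trans ?_
    haveI : NeZero (Nat.card P) := ⟨Nat.card_pos.ne'⟩
    rw [Nat.card_congr (IsCyclic.mulAutMulEquiv P).toEquiv, Nat.card_eq_fintype_card,
      ZMod.card_units_eq_totient, hP, Nat.totient_prime hpp]
  have hN1 : Nat.card P * P.relIndex N = Nat.card N := by
    rw [Subgroup.relIndex, ← (P.subgroupOf N).card_mul_index,
      Nat.card_congr (Subgroup.subgroupOfEquivOfLe Subgroup.le_normalizer).toEquiv]
  have h1 : Nat.card (Sylow p L) ≡ 1 [MOD p] := card_sylow_modEq_one p L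
  have h2 : Nat.card (Sylow p L) = N.index := by
    rw [Sylow.card_eq_index_normalizer T, hN, ← hT]; rfl
  have h3 := N.card_mul_index
  rw [card_pslFour hF e, ← hN1, hP] at h3
  rw [h2, Nat.ModEq] at h1
  refine ⟨P.relIndex N, ?_, rfl⟩
  rcases hp with rfl | rfl
  · left
    refine ⟨?_, rfl⟩
    have hle := Nat.le_of_dvd (by norm_num) hd
    interval_cases hi : P.relIndex N <;> omega
  · right
    refine ⟨?_, rfl⟩
    have hle := Nat.le_of_dvd (by norm_num) hd
    interval_cases hi : P.relIndex N <;> omega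

/-- All involutions are conjugate. -/
theorem isConj_involution (hF : Fintype.card F = 4)
    (e : L ≃* Matrix.ProjectiveSpecialLinearGroup (Fin 3) F) {a b : L} (ha : orderOf a = 2)
    (hb : orderOf b = 2) : IsConj a b := by
  have h2 : (2 : F) = 0 := InvChar.PSLThreeFour.two_eq_zero hF
  have := e.symm.toMonoidHom.map_isConj
    (CNStruct.isConj_involution_psl_three h2 (e a) (e b) (by rw [MulEquiv.orderOf_eq, ha])
      (by rw [MulEquiv.orderOf_eq, hb]))
  simpa using this

end

/-- An involution whose commutators with a group lie in a normalised subgroup of an abelian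
group, and which has an orbit of odd size, is congruent to an element centralised by the group. -/
theorem exists_fixed_in_coset {G : Type*} [Group G] [Finite G] {U E N S : Subgroup G} {u : G}
    (hU : ∀ a ∈ U, ∀ b ∈ U, a * b = b * a) (hEU : E ≤ U) (huU : u ∈ U) (hu2 : u * u = 1)
    (hN : ∀ m ∈ N, ∀ a ∈ U, m * a * m⁻¹ ∈ U) (hd : ∀ m ∈ N, m * u * m⁻¹ * u⁻¹ ∈ E)
    (hSN : S ≤ N) (hS : ∀ s ∈ S, s * u = u * s) (hodd : ¬ 2 ∣ S.relIndex N) :
    ∃ e ∈ E, ∀ m ∈ N, m * (u * e) = u * e * m := by
  classical
  let _ : CommGroup U :=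
    { (inferInstance : Group U) with mul_comm := fun a b => Subtype.ext (hU a a.2 b b.2) }
  let C : Subgroup N := (Subgroup.centralizer ({u} : Set G)).subgroupOf N
  haveI : Fintype (N ⧸ C) := Fintype.ofFinite _
  have hC : ¬ 2 ∣ C.index := by
    intro h
    refine hodd (h.trans ?_)
    exact Subgroup.relIndex_dvd_of_le_left N fun s hs =>
      Subgroup.mem_centralizer_singleton_iff.2 (hS s hs)
  let g : N → U := fun m => ⟨(m : G) * u * (m : G)⁻¹, hN m m.2 u huU⟩
  have hg : ∀ a b : N, QuotientGroup.leftRel C a b → g a = g b := by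
    intro a b hab
    rw [QuotientGroup.leftRel_apply, Subgroup.mem_subgroupOf,
      Subgroup.mem_centralizer_singleton_iff] at hab
    apply Subtype.ext
    simp only [g, Subgroup.coe_mul, InvMemClass.coe_inv] at hab ⊢
    calc (a : G) * u * (a : G)⁻¹ = (a : G) * (u * ((a : G)⁻¹ * b)) * (b : G)⁻¹ := by group
      _ = (b : G) * u * (b : G)⁻¹ := by rw [← hab]; group
  let gq : N ⧸ C → U := Quotient.lift g hg
  let P : U := ∏ c, gq c
  have hfix : ∀ m : N, (m : G) * (P : G) * (m : G)⁻¹ = P := by
    intro m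
    let f : U →* U :=
      MonoidHom.mk' (fun a => ⟨(m : G) * a * (m : G)⁻¹, hN m m.2 a a.2⟩) fun a b =>
        Subtype.ext (by simp only [Subgroup.coe_mul]; group)
    have hfg : ∀ c : N ⧸ C, f (gq c) = gq (m • c) := by
      intro c
      induction c using Quotient.inductionOn with
      | h a =>
        show f (g a) = g (m * a)
        apply Subtype.ext
        simp only [f, g, MonoidHom.mk'_apply, Subgroup.coe_mul]
        group
    have h1 : f P = P := by
      rw [show f P = ∏ c, f (gq c) from map_prod f _ _]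
      simp only [hfg]
      exact Fintype.prod_equiv (MulAction.toPerm m) _ _ fun c => rfl
    exact congrArg Subtype.val h1
  -- the product lies in the coset of `u`
  let u' : U := ⟨u, huU⟩
  let EU : Subgroup U := E.subgroupOf U
  have hmem : ∀ c, gq c * u'⁻¹ ∈ EU := by
    intro c
    induction c using Quotient.inductionOn with
    | h a => exact hd a a.2
  have hprod : P * (u' ^ Fintype.card (N ⧸ C))⁻¹ ∈ EU := by
    have h0 : P * (u' ^ Fintype.card (N ⧸ C))⁻¹ = ∏ c, gq c * u'⁻¹ := by
      rw [Finset.prod_mul_distrib, Finset.prod_const, Finset.card_univ, inv_pow]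
    rw [h0]
    exact EU.prod_mem fun c _ => hmem c
  obtain ⟨j, hj⟩ : ∃ j, Fintype.card (N ⧸ C) = 2 * j + 1 := by
    rw [← Nat.card_eq_fintype_card]
    exact ⟨C.index / 2, by change C.index = _; omega⟩
  have hu' : u' ^ 2 = 1 := Subtype.ext (by simpa [pow_two] using hu2)
  rw [hj, pow_succ, pow_mul, hu', one_pow, one_mul, mul_comm] at hprod
  refine ⟨((u'⁻¹ * P : U) : G), hprod, fun m hm => ?_⟩
  have := mul_inv_eq_iff_eq_mul.1 (hfix ⟨m, hm⟩)
  rw [show u * ((u'⁻¹ * P : U) : G) = (P : G) by
    rw [Subgroup.coe_mul, InvMemClass.coe_inv, mul_inv_cancel_left]]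
  exact this

end CfsgLib.SuzukiType
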