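import Cfsg.Agent.Lib.SuzukiType.SecondStructure

/-!
Centralisers in `C(t)` of subgroups of order five and seven of the copy of `PSL₃(4)`, and the
action of the rotation on it.
-/

set_option autoImplicit false
set_option linter.unusedSectionVars false
set_option maxRecDepth 100000
set_option synthInstance.maxSize 2000

namespace CfsgLib.SuzukiType

open Cfsg CfsgLib.CIT

universe u₀

variable {G : Type u₀} [Group G] [Finite G]
variable {z : G} {Qf : G → Subgroup G} {θ : G → V} {ρ : G → O} {J : Subgroup O}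
variable {y h t u k n x : G}

/-- The elements of the four-group. -/
def IsFour (t u e : G) : Prop := e = 1 ∨ e = t ∨ e = u ∨ e = t * u

/-- An element of the four-group times the normal subgroup. -/
def Inner (z t u a : G) : Prop := ∃ e, IsFour t u e ∧ e * a ∈ NT z t

theorem pow_eq_of_coprime {a : G} {p i : ℕ} (hc : Nat.Coprime i p) (hp : a ^ p = 1) {H : Subgroup G}
    (hi : a ^ i ∈ H) : a ∈ H := by
  have hb := Nat.gcd_eq_gcd_ab i p
  rw [hc.gcd_eq_one] at hb
  have e : a = (a ^ i) ^ i.gcdA p := by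
    calc a = a ^ ((1 : ℕ) : ℤ) := by simp
      _ = (a ^ i) ^ i.gcdA p := by
        rw [hb, zpow_add, zpow_mul, zpow_mul, zpow_natCast, zpow_natCast, hp, one_zpow, mul_one]
  rw [e]
  exact H.zpow_mem hi _

namespace Second

variable (S : Second z Qf θ ρ J y h t u k n x)
include S

theorem four_NT {e a : G} (he : IsFour t u e) (ha : a ∈ NT z t) : e * a = a * e := by
  have h1 : t * a = a * t := (mem_HT.1 (S.NT_le ha)).symm
  have h2 : u * a = a * u := (S.u_centralises ha).symm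
  rcases he with rfl | rfl | rfl | rfl
  · simp
  · exact h1
  · exact h2
  · exact comm_mul h1 h2

theorem four_RR {e : G} (he : IsFour t u e) : e ∈ R0 z y t := by
  rcases he with rfl | rfl | rfl | rfl
  · exact one_mem _
  · exact S.t_R0
  · exact S.u_R0
  · exact mul_mem S.t_R0 S.u_R0

theorem four_sq {e : G} (he : IsFour t u e) : e * e = 1 := by
  rcases he with rfl | rfl | rfl | rfl
  · exact one_mul 1
  · exact S.t_sq
  · exact S.u_sq
  · exact S.tu_sq

theorem inner_R0 {a : G} (ha : a ∈ R0 z y t) : ∃ e, IsFour t u e ∧ e * a ∈ S.SS := by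
  rcases S.R0_cases ha with e | e | e | e
  · exact ⟨1, Or.inl rfl, by rwa [one_mul]⟩
  · exact ⟨t, Or.inr (Or.inl rfl), e⟩
  · exact ⟨u, Or.inr (Or.inr (Or.inl rfl)), e⟩
  · exact ⟨t * u, Or.inr (Or.inr (Or.inr rfl)), e⟩

theorem HT_decomp {a : G} (ha : a ∈ HT t) : ∃ m r, m ∈ NT z t ∧ r ∈ RR z t ∧ a = m * r := by
  obtain ⟨F, iF, iF', hF, ⟨f⟩⟩ := S.NT_iso
  letI := iF
  letI := iF'
  have hz : z ∈ NT z t := S.SS_le_NT S.z_SS
  have h1 : a * z * a⁻¹ ∈ NT z t := S.NT_normal ha hz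
  have ho : ∀ (b : G) (hb : b ∈ NT z t), b * b = 1 → b ≠ 1 → orderOf (⟨b, hb⟩ : NT z t) = 2 :=
    fun b hb h2 h1 => orderOf_eq_prime_iff.2
      ⟨Subtype.ext (by rw [Subgroup.coe_pow, pow_two]; exact h2), fun e => h1 (congrArg Subtype.val e)⟩
  obtain ⟨h2, h3⟩ := S.toSetting.conj_involution (c := a) S.toSetting.z_sq S.toSetting.z_ne
  obtain ⟨m, hm⟩ := isConj_iff.1 (isConj_involution hF f
    (ho z hz S.toSetting.z_sq S.toSetting.z_ne) (ho _ h1 h2 h3))
  have hm' : (m : G) * z * (m : G)⁻¹ = a * z * a⁻¹ := congrArg Subtype.val hm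
  refine ⟨m, (m : G)⁻¹ * a, m.2, mem_RR.2 ⟨conj_fix_iff.1 ?_,
    comm_mul (comm_inv (mem_HT.1 (S.NT_le m.2))) (mem_HT.1 ha)⟩, by group⟩
  calc (m : G)⁻¹ * a * z * ((m : G)⁻¹ * a)⁻¹ = (m : G)⁻¹ * (a * z * a⁻¹) * m := by group
    _ = z := by rw [← hm']; group

theorem pow_decomp {m r : G} (hm : m ∈ NT z t) (hr : r ∈ RR z t) :
    ∀ i : ℕ, ∃ m' ∈ NT z t, (m * r) ^ i = m' * r ^ i := by
  intro i
  induction i with
  | zero => exact ⟨1, one_mem _, by simp⟩
  | succ i ih =>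
    obtain ⟨m', hm', e⟩ := ih
    refine ⟨m' * (r ^ i * m * (r ^ i)⁻¹), mul_mem hm' (S.NT_normal ((HT t).pow_mem hr.2 i) hm), ?_⟩
    rw [pow_succ, e, pow_succ]
    group

theorem odd_mem_NT {a : G} (ha : a ∈ HT t) {p : ℕ} (hp : Odd p) (hap : a ^ p = 1) : a ∈ NT z t := by
  obtain ⟨m, r, hm, hr, rfl⟩ := S.HT_decomp ha
  obtain ⟨m', hm', e⟩ := S.pow_decomp hm hr 8
  have h8 : r ^ 8 = 1 := by
    obtain ⟨j, hj⟩ := S.R_isPGroup ⟨r, hr⟩
    by_cases hj3 : j ≤ 3
    · obtain ⟨d, hd⟩ := pow_dvd_pow 2 hj3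
      rw [show (8 : ℕ) = 2 ^ j * d from hd ▸ rfl, pow_mul]
      have : r ^ 2 ^ j = 1 := by simpa using congrArg Subtype.val hj
      rw [this, one_pow]
    · have h2 : r * r ∈ R0 z y t := by
        by_cases h : r ∈ R0 z y t
        · exact mul_mem h h
        · by_contra hb
          have h3 := S.outer_mul (mul_mem hr hr) hb
          have := mul_mem h3 (inv_mem (S.outer_mul hr h))
          exact h (by simpa [mul_assoc] using this)
      obtain ⟨v, w, hco⟩ := S.R0_co h2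
      rw [show (8 : ℕ) = 2 * 4 from rfl, pow_mul, pow_two]
      exact S.Co_pow_four hco
  rw [h8, mul_one] at e
  exact pow_eq_of_coprime ((Nat.coprime_two_left.2 hp).pow_left 3) hap
    (show (m * r) ^ 2 ^ 3 ∈ NT z t by norm_num [e]; exact hm')

theorem four_of_centralising {a : G} (ha : a ∈ HT t) (hc : ∀ b ∈ NT z t, a * b = b * a) :
    IsFour t u a := by
  have hR : a ∈ R0 z y t := mem_R0.2 ⟨⟨hc z (S.SS_le_NT S.z_SS), mem_HT.1 ha⟩,
    hc y (S.SS_le_NT S.y_SS)⟩
  obtain ⟨e, he, heS⟩ := S.inner_R0 hR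
  have hcen : ∀ b ∈ NT z t, e * a * b = b * (e * a) := fun b hb =>
    comm_mul (S.four_NT he hb) (hc b hb)
  have h1 : e * a = 1 := by
    by_contra hne
    obtain ⟨v, w, hco, hv, hw⟩ := heS
    have h4 := S.Co_pow_four hco
    -- a central involution in a CIT group which is not a 2-group
    obtain ⟨b, hbN, hb2, hb1, hbc⟩ : ∃ b, b ∈ NT z t ∧ b * b = 1 ∧ b ≠ 1 ∧
        ∀ c ∈ NT z t, c * b = b * c := by
      have hm : e * a ∈ NT z t := S.SS_le_NT ⟨v, w, hco, hv, hw⟩
      by_cases h2 : e * a * (e * a) = 1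
      · exact ⟨_, hm, h2, hne, fun c hc' => (hcen c hc').symm⟩
      · refine ⟨_, mul_mem hm hm, ?_, h2, fun c hc' => (comm_mul (hcen c hc') (hcen c hc')).symm⟩
        rw [← h4]
        simp only [pow_succ, pow_zero, one_mul, mul_assoc]
    have h2 : IsPGroup 2 (NT z t) := (S.NT_centralizer hbN hb2 hb1).to_le fun c hc' =>
      ⟨Subgroup.mem_centralizer_singleton_iff.2 (hbc c hc'), hc'⟩
    haveI : Fact (Nat.Prime 2) := ⟨Nat.prime_two⟩
    haveI := h2.isNilpotent
    exact S.NT_not_solvable inferInstance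
  have : a = e := by
    have h5 := congrArg (e * ·) h1
    simp only [← mul_assoc, S.four_sq he, one_mul, mul_one] at h5
    exact h5
  exact this ▸ he

theorem four_conj {e c : G} (he : IsFour t u e) (hc : c ∈ HT t) : IsFour t u (c * e * c⁻¹) := by
  refine S.four_of_centralising ((HT t).mul_mem ((HT t).mul_mem hc (S.four_RR he).1.2) ((HT t).inv_mem hc))
    fun b hb => ?_
  exact PairSetting.conj_comm (g := c) (a := e) (b := c⁻¹ * b * c) rfl (by group)
    (S.four_NT he (by simpa using S.NT_normal ((HT t).inv_mem hc) hb))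

theorem inner_conj {a c : G} (hc : c ∈ HT t) (ha : Inner z t u a) : Inner z t u (c * a * c⁻¹) := by
  obtain ⟨e, he, hea⟩ := ha
  refine ⟨c * e * c⁻¹, S.four_conj he hc, ?_⟩
  rw [show c * e * c⁻¹ * (c * a * c⁻¹) = c * (e * a) * c⁻¹ by group]
  exact S.NT_normal hc hea

theorem inner_of_R0 {a : G} (ha : a ∈ R0 z y t) : Inner z t u a := by
  obtain ⟨e, he, hS⟩ := S.inner_R0 ha
  exact ⟨e, he, S.SS_le_NT hS⟩

theorem inner_left {m a : G} (hm : m ∈ NT z t) (ha : Inner z t u a) : Inner z t u (m * a) := by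
  obtain ⟨e, he, hea⟩ := ha
  exact ⟨e, he, by rw [← mul_assoc, S.four_NT he hm, mul_assoc]; exact mul_mem hm hea⟩

/-- Centralisers of subgroups of order five or seven among the inner elements. -/
theorem inner_cent {p : ℕ} (hp : p = 5 ∨ p = 7) {P : Subgroup G} (hPN : P ≤ NT z t)
    (hP : Nat.card P = p) {a : G} (ha : Inner z t u a) (hc : ∀ b ∈ P, a * b = b * a) :
    ∃ e, IsFour t u e ∧ e * a ∈ P := by
  obtain ⟨F, iF, iF', hF, ⟨f⟩⟩ := S.NT_iso
  letI := iF
  letI := iF'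
  obtain ⟨e, he, hea⟩ := ha
  refine ⟨e, he, ?_⟩
  have hP' : Nat.card (P.subgroupOf (NT z t)) = p := by
    rw [Nat.card_congr (Subgroup.subgroupOfEquivOfLe hPN).toEquiv, hP]
  obtain ⟨hC, -⟩ := centralizer_of_card hF f hp hP'
  have hm : (⟨e * a, hea⟩ : NT z t) ∈ Subgroup.centralizer (P.subgroupOf (NT z t) : Set (NT z t)) :=
    Subgroup.mem_centralizer_iff.2 fun b hb =>
      Subtype.ext (comm_mul (S.four_NT he b.2) (hc b hb)).symm
  rw [hC] at hm
  exact hm

/-- No outer element of the Sylow subgroup centralises a subgroup of order five or seven. -/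
theorem no_outer {p : ℕ} (hp : p = 5 ∨ p = 7) {P : Subgroup G} (hPN : P ≤ NT z t)
    (hP : Nat.card P = p) {b : G} (hb : b ∈ RR z t) (hn : b ∉ R0 z y t)
    (hc : ∀ c ∈ P, b * c = c * b) : False := by
  classical
  haveI : Fact (Nat.Prime 2) := ⟨Nat.prime_two⟩
  have hpp : p.Prime := by rcases hp with rfl | rfl <;> norm_num
  -- the square lies in the four-group
  have hb2 : b * b ∈ R0 z y t := by
    by_contra hh
    have h3 := S.outer_mul (mul_mem hb hb) hh
    have := mul_mem h3 (inv_mem (S.outer_mul hb hn))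
    exact hn (by simpa [mul_assoc] using this)
  obtain ⟨e, he, heP⟩ := S.inner_cent hp hPN hP (S.inner_of_R0 hb2) fun c hc' =>
    comm_mul (hc c hc') (hc c hc')
  have heb : e * (b * b) = 1 := by
    obtain ⟨j, hj⟩ := S.R_isPGroup ⟨_, mul_mem (S.four_RR he).1 (mul_mem hb hb)⟩
    have h1 : (e * (b * b)) ^ 2 ^ j = 1 := congrArg Subtype.val hj
    have h2 : (e * (b * b)) ^ p = 1 := by
      have := congrArg Subtype.val (pow_card_eq_one' (x := (⟨_, heP⟩ : P)))
      simpa [hP] using this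
    exact (Subgroup.mem_bot).1 (pow_eq_of_coprime (H := ⊥)
      (((Nat.coprime_primes Nat.prime_two hpp).2 (by rcases hp with rfl | rfl <;> norm_num)).pow_left j)
      h2 (by rw [h1]; exact one_mem _))
  have hbb : b * b = e := by
    have := congrArg (e * ·) heb
    simpa [← mul_assoc, S.four_sq he] using this
  -- an element of order four centralising `b`
  obtain ⟨cm, cp, cσ, c0, cE1, cE2⟩ := c_vals
  obtain ⟨a, ha⟩ := S.Co_exists cm mid_zero
  obtain ⟨v', w', hr⟩ := S.R0_co (S.outer_mul hb hn)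
  have hba : ∀ a, b * a * b⁻¹ = (b * x) * (x * a * x⁻¹) * (b * x)⁻¹ := by
    intro a
    rw [conj_eq_mul_self (a := b) S.xx,
      show b * x * (x * a * x) * (b * x)⁻¹ = b * (x * x) * a * (x * x⁻¹) * b⁻¹ by group, S.xx]
    group
  obtain ⟨i, j, hij⟩ : ∃ i j, b * a * b⁻¹ = zy z y i j * a := by
    have h1 := S.xσ a _ _ ha
    rw [cσ, c0] at h1
    obtain ⟨i, j, e1⟩ := S.Co_coset ha h1
    refine ⟨C1 v' w' (e2V + f2V) 0 + i, C2 v' w' (e2V + f2V) 0 + j, ?_⟩
    rw [hba, S.Co_conj hr h1, e1, ← mul_assoc, S.zy_mul]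
  have hby : b * y * b⁻¹ = z * y := by
    rcases S.moves_y hb with e | e
    · exact absurd (mem_R0.2 ⟨mem_RR.1 hb, conj_fix_iff.1 e⟩) hn
    · exact e
  have hbzy : ∀ i j, b * zy z y i j * b⁻¹ = zy z y (i + j) j := by
    intro i j
    rw [zy, show b * (zp z i * zp y j) * b⁻¹ = (b * zp z i * b⁻¹) * (b * zp y j * b⁻¹) by group,
      conj_fix_iff.2 (zp_comm (mem_RR.1 hb).1 i)]
    rcases z2_cases j with rfl | rfl
    · simp [zy]
    · rw [zp_one, hby, zy, zp_one, zp_add S.toSetting.z_sq, zp_one, mul_assoc]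
  have haS : a ∈ S.SS := ⟨_, _, ha, cp, perp_zero⟩
  have haT : e * a = a * e := S.four_NT he (S.SS_le_NT haS)
  have hj : j = 0 := by
    have h1 : b * (b * a * b⁻¹) * b⁻¹ = a := by
      rw [show b * (b * a * b⁻¹) * b⁻¹ = (b * b) * a * (b * b)⁻¹ by group, hbb, conj_fix_iff.2 haT]
    rw [hij, show b * (zy z y i j * a) * b⁻¹ = (b * zy z y i j * b⁻¹) * (b * a * b⁻¹) by group, hij,
      hbzy, ← mul_assoc, S.zy_mul] at h1
    obtain ⟨e1, -⟩ := S.zy_eq_one (mul_eq_right.1 h1)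
    linear_combination e1 - CharTwo.add_self_eq_zero i
  subst hj
  obtain ⟨q, hqS, hqb, hq2⟩ : ∃ q ∈ S.SS, q * b = b * q ∧ q * q = z := by
    have hsq : a * a = z := by rw [S.Co_sq ha, cE1, cE2]; simp [zy]
    rcases z2_cases i with rfl | rfl
    · refine ⟨a, haS, (conj_fix_iff.1 ?_).symm, hsq⟩
      rw [hij]; simp [zy]
    · refine ⟨y * a, mul_mem S.y_SS haS, (conj_fix_iff.1 ?_).symm, ?_⟩
      · rw [show b * (y * a) * b⁻¹ = (b * y * b⁻¹) * (b * a * b⁻¹) by group, hby, hij,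
          show zy z y 1 0 = z by simp [zy]]
        rw [show z * y * (z * a) = z * (y * z) * a by group, S.yz_comm, ← mul_assoc z z,
          S.toSetting.z_sq, one_mul]
      · have hay : a * y = y * a := (S.SS_comm haS).2.2.2
        rw [show y * a * (y * a) = y * (a * y) * a by group, hay, ← mul_assoc y y, S.y_sq, one_mul, hsq]
  -- the centraliser of `b` in the normal subgroup
  set X := Subgroup.centralizer ({b} : Set G) ⊓ NT z t with hX
  set PS := Subgroup.centralizer ({b} : Set G) ⊓ S.SS with hPS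
  have hPX : PS ≤ X := inf_le_inf_left _ S.SS_le_NT
  have hPS2 : IsPGroup 2 PS := S.SS_isPGroup.to_le inf_le_right
  have hzPS : z ∈ PS := ⟨Subgroup.mem_centralizer_singleton_iff.2 (mem_RR.1 hb).1.symm, S.z_SS⟩
  have huniq : ∀ g, g * z * g⁻¹ ∈ PS → g * z * g⁻¹ = z := fun g h1 =>
    S.zType_fixed hb hn (S.SS_le h1.2).1
      (S.toSetting.conj_involution (c := g) S.toSetting.z_sq S.toSetting.z_ne).1
      (isConj_iff.2 ⟨g, rfl⟩) (Subgroup.mem_centralizer_singleton_iff.1 h1.1).symm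
  have hodd := odd_relIndex_of_normalizer hPS2 hPX fun g hg hnorm => by
    refine ⟨hg.1, S.NT_sylow.1 ▸ ⟨hg.2, mem_RR.2 ⟨conj_fix_iff.1 (huniq g (hnorm z hzPS)), ?_⟩⟩⟩
    exact mem_HT.1 (S.NT_le hg.2)
  obtain ⟨T, hT⟩ := ConjFunctor.exists_sylow_subgroupOf hPS2 hPX hodd
  let z' : X := ⟨z, hPX hzPS⟩
  have hz'o : orderOf z' = 2 := orderOf_eq_prime_iff.2
    ⟨Subtype.ext (by rw [Subgroup.coe_pow, pow_two]; exact S.toSetting.z_sq),
      fun e => S.toSetting.z_ne (congrArg Subtype.val e)⟩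
  have hiso : ∀ g : X, g * z' * g⁻¹ ∈ T → g * z' * g⁻¹ = z' := fun g hg => Subtype.ext (by
    have hg' : g * z' * g⁻¹ ∈ (T : Subgroup X) := hg
    rw [hT] at hg'
    exact huniq g hg')
  set W := oddCore X with hW
  have hWz : ∀ g : X, z' * g * z'⁻¹ * g⁻¹ ∈ W := fun g => Involutions.zstar_isolated T hz'o hiso g
  have hWc : Odd (Nat.card W) :=
    Nat.coprime_two_right.1 (Cores.card_pPrimeCore_coprime 2)
  haveI : W.Normal := by rw [hW, oddCore]; infer_instance
  have hzW : ∀ w ∈ W, z' * w = w * z' → w = 1 := by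
    intro w hw hzw
    refine Subtype.ext (S.zy_fpf (c := z) (Or.inl rfl) w.2.2 (congrArg Subtype.val hzw) hWc ?_)
    exact congrArg Subtype.val (congrArg Subtype.val (pow_card_eq_one' (x := (⟨w, hw⟩ : W))))
  have hz2 : z' * z' = 1 := Subtype.ext S.toSetting.z_sq
  have hzi : z'⁻¹ = z' := inv_eq_of_mul_eq_one_right hz2
  -- every element of `W` is inverted
  let φ : W → W := fun w => ⟨(w : X)⁻¹ * (z' * w * z'⁻¹),
    W.mul_mem (W.inv_mem w.2) ((inferInstance : W.Normal).conj_mem _ w.2 z')⟩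
  have hφ : Function.Injective φ := by
    intro v w e
    have e1 : (v : X)⁻¹ * (z' * v * z'⁻¹) = (w : X)⁻¹ * (z' * w * z'⁻¹) := congrArg Subtype.val e
    have h1 := hzW ((w : X) * (v : X)⁻¹) (W.mul_mem w.2 (W.inv_mem v.2)) (conj_fix_iff.1 (by
      calc z' * ((w : X) * (v : X)⁻¹) * z'⁻¹ = (z' * w * z'⁻¹) * (z' * v * z'⁻¹)⁻¹ := by group
        _ = (w : X) * ((w : X)⁻¹ * (z' * w * z'⁻¹)) * (z' * v * z'⁻¹)⁻¹ := by group
        _ = (w : X) * (v : X)⁻¹ := by rw [← e1]; group))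
    exact Subtype.ext (mul_inv_eq_one.1 h1).symm
  have hinv : ∀ w ∈ W, z' * w * z'⁻¹ = w⁻¹ := by
    intro w hw
    obtain ⟨v, hv⟩ := Finite.surjective_of_injective hφ ⟨w, hw⟩
    have e : (v : X)⁻¹ * (z' * v * z'⁻¹) = w := congrArg Subtype.val hv
    rw [← e]
    calc z' * ((v : X)⁻¹ * (z' * v * z'⁻¹)) * z'⁻¹
        = (z' * v * z'⁻¹)⁻¹ * (z' * z') * v * (z' * z')⁻¹ := by group
      _ = ((v : X)⁻¹ * (z' * v * z'⁻¹))⁻¹ := by rw [hz2]; group
  have hWab : ∀ v ∈ W, ∀ w ∈ W, v * w = w * v := by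
    intro v hv w hw
    have h1 := hinv _ (W.mul_mem hv hw)
    rw [show z' * (v * w) * z'⁻¹ = (z' * v * z'⁻¹) * (z' * w * z'⁻¹) by group, hinv v hv, hinv w hw,
      ← mul_inv_rev, inv_inj] at h1
    exact h1.symm
  -- the subgroup of order `p` is the core
  have hPX' : P ≤ X := fun c hc' =>
    ⟨Subgroup.mem_centralizer_singleton_iff.2 (hc c hc').symm, hPN hc'⟩
  have hPW : ∀ c (hc' : c ∈ P), (⟨c, hPX' hc'⟩ : X) ∈ W := by
    intro c hc'
    set g : X := ⟨c, hPX' hc'⟩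
    obtain ⟨v, hv⟩ := Finite.surjective_of_injective hφ ⟨_, W.inv_mem (hWz g)⟩
    have e : (v : X)⁻¹ * (z' * v * z'⁻¹) = (z' * g * z'⁻¹ * g⁻¹)⁻¹ := congrArg Subtype.val hv
    have e2 : z' * (v : X) * z'⁻¹ = (v : X)⁻¹ := hinv _ v.2
    rw [e2] at e
    have e3 : z' * g * z'⁻¹ = (v : X) * (v : X) * g := by
      have h1 := congrArg (·⁻¹) e
      simp only [inv_inv, mul_inv_rev] at h1
      have h2 : (v : X) * v = z' * g * z'⁻¹ * g⁻¹ := by
        exact h1
      rw [h2]; group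
    set s : X := (v : X) * g with hs
    have hsz : z' * s = s * z' := by
      refine conj_fix_iff.1 ?_
      rw [hs, show z' * ((v : X) * g) * z'⁻¹ = (z' * v * z'⁻¹) * (z' * g * z'⁻¹) by group, e2, e3]
      group
    -- so `s` is a two-element
    obtain ⟨j, hj⟩ := S.R_isPGroup ⟨(s : G), mem_RR.2
      ⟨(congrArg Subtype.val hsz).symm, mem_HT.1 (S.NT_le s.2.2)⟩⟩
    have hs1 : s ^ 2 ^ j = 1 := by
      apply Subtype.ext
      have h3 := congrArg Subtype.val hj
      simpa using h3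
    have hgW : g ^ 2 ^ j ∈ W := by
      rw [← QuotientGroup.eq_one_iff (N := W), QuotientGroup.mk_pow]
      have h3 : ((s : X) : X ⧸ W) = (g : X ⧸ W) := by
        rw [hs, QuotientGroup.mk_mul, (QuotientGroup.eq_one_iff (v : X)).2 v.2, one_mul]
      rw [← h3, ← QuotientGroup.mk_pow, hs1, QuotientGroup.mk_one]
    refine pow_eq_of_coprime (((Nat.coprime_primes Nat.prime_two hpp).2
      (by rcases hp with rfl | rfl <;> norm_num)).pow_left j) ?_ hgW
    refine Subtype.ext ?_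
    have := congrArg Subtype.val (pow_card_eq_one' (x := (⟨c, hc'⟩ : P)))
    simpa [hP, g] using this
  obtain ⟨F, iF, iF', hF, ⟨f⟩⟩ := S.NT_iso
  letI := iF
  letI := iF'
  have hP' : Nat.card (P.subgroupOf (NT z t)) = p := by
    rw [Nat.card_congr (Subgroup.subgroupOfEquivOfLe hPN).toEquiv, hP]
  obtain ⟨hC, -⟩ := centralizer_of_card hF f hp hP'
  obtain ⟨i, hi, hidx⟩ := normalizer_of_card hF f hp hP'
  have hWP : ∀ w ∈ W, ((w : X) : G) ∈ P := by
    intro w hw
    have hm : (⟨w, w.2.2⟩ : NT z t) ∈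
        Subgroup.centralizer (P.subgroupOf (NT z t) : Set (NT z t)) :=
      Subgroup.mem_centralizer_iff.2 fun c hc' => Subtype.ext
        (congrArg Subtype.val (hWab _ (hPW _ hc') w hw) :)
    rw [hC] at hm
    exact hm
  set qL : NT z t := ⟨q, S.SS_le_NT hqS⟩ with hqL
  have hqN : qL ∈ Subgroup.normalizer (P.subgroupOf (NT z t) : Set (NT z t)) := by
    have hqX : q ∈ X := ⟨Subgroup.mem_centralizer_singleton_iff.2 hqb, S.SS_le_NT hqS⟩
    refine Subgroup.mem_normalizer_iff.2 fun c => ⟨fun hc' => ?_, fun hc' => ?_⟩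
    · exact hWP _ ((inferInstance : W.Normal).conj_mem _ (hPW _ hc') ⟨q, hqX⟩)
    · have h1 : q⁻¹ * (q * (c : G) * q⁻¹) * q⁻¹⁻¹ ∈ P :=
        hWP _ ((inferInstance : W.Normal).conj_mem _ (hPW _ hc') ⟨q⁻¹, X.inv_mem hqX⟩)
      rwa [show q⁻¹ * (q * (c : G) * q⁻¹) * q⁻¹⁻¹ = (c : G) by group] at h1
  haveI : ((P.subgroupOf (NT z t)).subgroupOf
      (Subgroup.normalizer (P.subgroupOf (NT z t) : Set (NT z t)))).Normal :=
    Subgroup.normal_in_normalizer
  have hqi : q ^ i ∈ P := by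
    have := ((P.subgroupOf (NT z t)).subgroupOf
      (Subgroup.normalizer (P.subgroupOf (NT z t) : Set (NT z t)))).pow_index_mem ⟨qL, hqN⟩
    rw [show ((P.subgroupOf (NT z t)).subgroupOf
      (Subgroup.normalizer (P.subgroupOf (NT z t) : Set (NT z t)))).index = i from hidx] at this
    exact this
  have hq4 : q ^ 4 = 1 := by
    rw [show q ^ 4 = (q * q) * (q * q) by simp only [pow_succ, pow_zero, one_mul, mul_assoc], hq2,
      S.toSetting.z_sq]
  have hzP : z ∈ P := by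
    rw [← hq2, ← pow_two]
    rcases hi with ⟨rfl, -⟩ | ⟨rfl, -⟩
    · exact hqi
    · have h1 : q ∈ P := by
        have := P.inv_mem hqi
        rwa [show (q ^ 3)⁻¹ = q from inv_eq_of_mul_eq_one_right (by rw [← pow_succ, hq4])] at this
      exact P.pow_mem h1 2
  have h1 : z ^ p = 1 := by
    have := congrArg Subtype.val (pow_card_eq_one' (x := (⟨z, hzP⟩ : P)))
    simpa [hP] using this
  obtain ⟨j, hj⟩ : ∃ j, p = 2 * j + 1 := ⟨p / 2, by rcases hp with rfl | rfl <;> norm_num⟩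
  rw [hj, pow_succ, pow_mul, pow_two, S.toSetting.z_sq, one_pow, one_mul] at h1
  exact S.toSetting.z_ne h1

/-- The centraliser in `C(t)` of a subgroup of order five or seven. -/
theorem HT_cent {p : ℕ} (hp : p = 5 ∨ p = 7) {P : Subgroup G} (hPN : P ≤ NT z t)
    (hP : Nat.card P = p) {a : G} (ha : a ∈ HT t) (hc : ∀ b ∈ P, a * b = b * a) :
    ∃ e, IsFour t u e ∧ e * a ∈ P := by
  haveI : Fact (Nat.Prime 2) := ⟨Nat.prime_two⟩
  refine S.inner_cent hp hPN hP ?_ hc
  by_contra hni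
  -- the two part
  obtain ⟨j, o, ho, hord⟩ := Nat.exists_eq_two_pow_mul_odd (orderOf_pos a).ne'
  set b₀ := a ^ o with hb₀
  have hb₀2 : b₀ ^ 2 ^ j = 1 := by
    rw [hb₀, ← pow_mul, mul_comm, ← hord, pow_orderOf_eq_one]
  have hb₀H : b₀ ∈ HT t := (HT t).pow_mem ha o
  have hD : IsPGroup 2 (Subgroup.zpowers b₀) := by
    refine fun c => ⟨j, Subtype.ext ?_⟩
    obtain ⟨i, hi⟩ := Subgroup.mem_zpowers_iff.1 c.2
    rw [Subgroup.coe_pow, ← hi, ← zpow_natCast, ← zpow_mul, mul_comm, zpow_mul, zpow_natCast, hb₀2,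
      one_zpow, Subgroup.coe_one]
  obtain ⟨c, hcH, hcd⟩ := exists_conj_into (K := HT t) S.R_isPGroup inf_le_right S.R_sylow hD
    (Subgroup.zpowers_le.2 hb₀H)
  have hb := hcd b₀ (Subgroup.mem_zpowers b₀)
  by_cases hbn : c * b₀ * c⁻¹ ∈ R0 z y t
  · -- then the element itself would be inner
    have hi := S.inner_conj ((HT t).inv_mem hcH) (S.inner_of_R0 hbn)
    rw [inv_inv, show c⁻¹ * (c * b₀ * c⁻¹) * c = b₀ by group] at hi
    have hsq : ∀ d ∈ HT t, Inner z t u (d * d) := by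
      intro d hd
      obtain ⟨m, r, hm, hr, rfl⟩ := S.HT_decomp hd
      have h2 : r * r ∈ R0 z y t := by
        by_cases h : r ∈ R0 z y t
        · exact mul_mem h h
        · by_contra hh
          have h3 := S.outer_mul (mul_mem hr hr) hh
          have := mul_mem h3 (inv_mem (S.outer_mul hr h))
          exact h (by simpa [mul_assoc] using this)
      rw [show m * r * (m * r) = m * (r * m * r⁻¹) * (r * r) by group]
      exact S.inner_left (mul_mem hm (S.NT_normal hr.2 hm)) (S.inner_of_R0 h2)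
    obtain ⟨o', rfl⟩ := ho
    apply hni
    obtain ⟨e, he, heb⟩ := hi
    obtain ⟨e', he', heb'⟩ := hsq _ ((HT t).pow_mem ha o')
    -- the quotient by the even power
    have hinv : Inner z t u (a ^ o' * a ^ o')⁻¹ := by
      refine ⟨e', he', ?_⟩
      have h1 := mul_mem (inv_mem heb') (one_mem _)
      have h2 : (a ^ o' * a ^ o')⁻¹ * e' ∈ NT z t := by
        have := inv_mem heb'
        rwa [mul_inv_rev, inv_eq_of_mul_eq_one_right (S.four_sq he')] at this
      have h3 := S.NT_normal (S.four_RR he').1.2 h2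
      rwa [show e' * ((a ^ o' * a ^ o')⁻¹ * e') * e'⁻¹ = e' * (a ^ o' * a ^ o')⁻¹ by group] at h3
    obtain ⟨e'', he'', heb''⟩ := hinv
    have hprod : e'' * (a ^ o' * a ^ o')⁻¹ * (e * b₀) ∈ NT z t := mul_mem heb'' heb
    have hea : e'' * (a ^ o' * a ^ o')⁻¹ * (e * b₀) = e'' * ((a ^ o' * a ^ o')⁻¹ * e * (a ^ o' * a ^ o')) * a := by
      rw [hb₀, show 2 * o' + 1 = o' + o' + 1 by ring, pow_succ, pow_add]
      group
    rw [hea] at hprod
    have hf := S.four_conj he ((HT t).inv_mem ((HT t).mul_mem ((HT t).pow_mem ha o') ((HT t).pow_mem ha o')))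
    rw [inv_inv] at hf
    have hmul : ∀ {e₁ e₂ : G}, IsFour t u e₁ → IsFour t u e₂ → IsFour t u (e₁ * e₂) := fun h1 h2 =>
      S.four_of_centralising ((HT t).mul_mem (S.four_RR h1).1.2 (S.four_RR h2).1.2) fun b hb =>
        comm_mul (S.four_NT h1 hb) (S.four_NT h2 hb)
    exact ⟨_, hmul he'' hf, hprod⟩
  · refine S.no_outer hp (P := P.map (MulAut.conj c).toMonoidHom) ?_ ?_ hb hbn ?_
    · rintro _ ⟨d, hd, rfl⟩
      exact S.NT_normal hcH (hPN hd)
    · rw [Subgroup.card_map_of_injective (MulAut.conj c).injective, hP]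
    · rintro _ ⟨d, hd, rfl⟩
      exact PairSetting.conj_comm (g := c) rfl rfl
        ((show Commute a d from hc d hd).pow_left o).eq

theorem NT_k : ∀ a ∈ NT z t, k * a * k⁻¹ ∈ NT z t := by
  have hmap : ∀ {t₁ t₂ : G}, k * t₁ * k⁻¹ = t₂ → (NT z t₁).map (MulAut.conj k).toMonoidHom ≤ NT z t₂ := by
    intro t₁ t₂ e
    rw [NT, MonoidHom.map_closure, Subgroup.closure_le]
    rintro _ ⟨i, ⟨hit, hi2, hic⟩, rfl⟩
    refine Subgroup.subset_closure ⟨PairSetting.conj_comm rfl e hit, ?_,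
      hic.trans (isConj_iff.2 ⟨k, rfl⟩)⟩
    show k * i * k⁻¹ * (k * i * k⁻¹) = 1
    rw [show k * i * k⁻¹ * (k * i * k⁻¹) = k * (i * i) * k⁻¹ by group, hi2]; group
  have hle : NT z t ≤ NT z u := by
    rw [NT, Subgroup.closure_le]
    intro i hi
    exact Subgroup.subset_closure
      ⟨S.u_centralises (Subgroup.subset_closure hi), hi.2.1, hi.2.2⟩
  have hktu : k * (t * u) * k⁻¹ = t := by
    rw [show k * (t * u) * k⁻¹ = (k * t * k⁻¹) * (k * u * k⁻¹) by group, S.kt, S.ku, ← mul_assoc,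
      S.ut, mul_assoc, S.u_sq, mul_one]
  set g := (MulAut.conj k).toMonoidHom
  have hinj : Function.Injective g := (MulAut.conj k).injective
  have hc1 : Nat.card (NT z u) ≤ Nat.card (NT z (t * u)) :=
    (Subgroup.card_map_of_injective hinj (K := NT z u)).symm.le.trans
      (Subgroup.card_le_of_le (hmap S.ku))
  have hc2 : Nat.card (NT z (t * u)) ≤ Nat.card (NT z t) :=
    (Subgroup.card_map_of_injective hinj (K := NT z (t * u))).symm.le.trans
      (Subgroup.card_le_of_le (hmap hktu))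
  have heq : NT z t = NT z u := Subgroup.eq_of_le_of_card_ge hle (hc1.trans hc2)
  intro a ha
  have h1 : g a ∈ NT z u := hmap S.kt ⟨a, ha, rfl⟩
  rw [← heq] at h1
  exact h1

theorem NT_k_inv : ∀ a ∈ NT z t, k⁻¹ * a * k ∈ NT z t := by
  intro a ha
  let g : NT z t → NT z t := fun b => ⟨k * b * k⁻¹, S.NT_k b b.2⟩
  have hg : Function.Surjective g := Finite.surjective_of_injective fun b c e =>
    Subtype.ext (by simpa [g] using congrArg Subtype.val e)
  obtain ⟨b, hb⟩ := hg ⟨a, ha⟩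
  have hb' : k * (b : G) * k⁻¹ = a := congrArg Subtype.val hb
  rw [← hb', show k⁻¹ * (k * (b : G) * k⁻¹) * k = b by group]
  exact b.2

end Second

end CfsgLib.SuzukiType
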