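import Cfsg.Agent.Lib.SuzukiType.SecondSimple
import Cfsg.Agent.Lib.SuzukiType.PSLFourFacts
import Cfsg.Agent.Lib.Involutions.BrauerSuzuki
import Cfsg.Agent.Lib.ClassicalLinear.ProjLine
import Cfsg.Agent.Lib.ClassicalLinear.Simple

/-!
The structure of the centraliser of `t`: the four-group centralises the copy of `PSL₃(4)`, and the
centralisers in `C(t)` of subgroups of order five and seven.
-/

set_option autoImplicit false
set_option linter.unusedSectionVars false
set_option maxRecDepth 100000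
set_option synthInstance.maxSize 2000

namespace CfsgLib.SuzukiType

open Cfsg CfsgLib.CIT

universe u₀

variable {G : Type u₀} [Group G] [Finite G]
variable {z : G} {Qf : G → Subgroup G} {θ : G → V} {ρ : G → O} {J : Subgroup O}
variable {y h t u k n x : G}

/-- The two choices of a singular line in the perpendicular part. -/
def Sing (ε : V) : Prop := ε = e2V ∨ ε = f2V

theorem sing_facts : ∀ ε ∈ [e2V, f2V], Mid ε ∧ Perp ε ∧ rotF ε = ε ∧ ε ≠ 0 ∧
    bl ε ε = 0 ∧ q ε = 0 := by decide +kernel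

theorem sing_spec {ε : V} (h : Sing ε) : Mid ε ∧ Perp ε ∧ rotF ε = ε ∧ ε ≠ 0 ∧
    bl ε ε = 0 ∧ q ε = 0 :=
  sing_facts ε (by rcases h with rfl | rfl <;> simp)

theorem sing_four : ∀ ε ∈ [e2V, f2V], ∀ a b c d : ZMod 2,
    E1 (a • ε) (b • ε) = 0 ∧ E2 (a • ε) (b • ε) = 0 ∧
    C1 (a • ε) (b • ε) (c • ε) (d • ε) = 0 ∧ C2 (a • ε) (b • ε) (c • ε) (d • ε) = 0 ∧
    rotF (b • ε) = b • ε ∧ rotF (a • ε + b • ε) = (a + b) • ε := by decide +kernel

theorem sing_self : ∀ v : V, Mid v → ∀ w : V, Mid w → Perp v → Perp w → ∀ ε ∈ [e2V, f2V],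
    C2 v w ε 0 = 0 → C1 v w 0 ε = 0 → (∃ a : ZMod 2, a • ε = v) ∧ ∃ b : ZMod 2, b • ε = w := by
  rw [forall_mid]; intro b d g k; rw [forall_mid]; revert b d g k; decide +kernel

theorem smul_eq_zero_cases {ε : V} (h : Sing ε) {a : ZMod 2} (e : a • ε = 0) : a = 0 := by
  rcases z2_cases a with ha | ha
  · exact ha
  · rw [ha, one_smul] at e
    exact absurd e (sing_spec h).2.2.2.1

theorem c_vals : Mid (e2V + f2V) ∧ Perp (e2V + f2V) ∧ sigF (e2V + f2V + 0) = e2V + f2V ∧ sigF 0 = 0 ∧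
    E1 (e2V + f2V) 0 = 1 ∧ E2 (e2V + f2V) 0 = 0 := by decide +kernel

namespace Second

variable (S : Second z Qf θ ρ J y h t u k n x)
include S

/-- An elementary abelian subgroup of order sixteen. -/
def EE {ε : V} (hε : Sing ε) : Subgroup G where
  carrier := {a | ∃ c d : ZMod 2, Co z Qf θ ρ y a (c • ε) (d • ε)}
  mul_mem' := by
    rintro a b ⟨c, d, ha⟩ ⟨c', d', hb⟩
    exact ⟨c + c', d + d', by rw [add_smul, add_smul]; exact S.Co_mul ha hb⟩
  one_mem' := ⟨0, 0, by rw [zero_smul]; simpa [zy] using S.Co_zy 0 0⟩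
  inv_mem' := by
    rintro a ⟨c, d, ha⟩
    exact ⟨c, d, S.Co_inv ha⟩

theorem EE_mem_list {ε : V} (hε : Sing ε) : ε ∈ [e2V, f2V] := by
  rcases hε with rfl | rfl <;> simp

theorem EE_sq {ε : V} (hε : Sing ε) : ∀ a ∈ S.EE hε, a * a = 1 := by
  rintro a ⟨c, d, ha⟩
  obtain ⟨e1, e2, -⟩ := sing_four ε (S.EE_mem_list hε) c d c d
  exact S.co_sq_one ha e1 e2

theorem EE_comm {ε : V} (hε : Sing ε) : ∀ a ∈ S.EE hε, ∀ b ∈ S.EE hε, a * b = b * a := by
  rintro a ⟨c, d, ha⟩ b ⟨c', d', hb⟩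
  obtain ⟨-, -, e1, e2, -⟩ := sing_four ε (S.EE_mem_list hε) c d c' d'
  exact (S.Co_commute ha hb).2 ⟨e1, e2⟩

theorem EE_le {ε : V} (hε : Sing ε) : S.EE hε ≤ S.SS := by
  rintro a ⟨c, d, ha⟩
  refine ⟨_, _, ha, ?_, ?_⟩
  · rcases z2_cases c with rfl | rfl
    · rw [zero_smul]; exact perp_zero
    · rw [one_smul]; exact (sing_spec hε).2.1
  · rcases z2_cases d with rfl | rfl
    · rw [zero_smul]; exact perp_zero
    · rw [one_smul]; exact (sing_spec hε).2.1

theorem zy_EE {ε : V} (hε : Sing ε) (i j : ZMod 2) : zy z y i j ∈ S.EE hε :=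
  ⟨0, 0, by rw [zero_smul]; exact S.Co_zy i j⟩

theorem card_EE {ε : V} (hε : Sing ε) : Nat.card (S.EE hε) = 16 := by
  classical
  obtain ⟨hm, -⟩ := sing_spec hε
  have hmid : ∀ c : ZMod 2, Mid (c • ε) := fun c => by
    rcases z2_cases c with rfl | rfl
    · rw [zero_smul]; exact mid_zero
    · rw [one_smul]; exact hm
  choose L hL using fun c d : ZMod 2 => S.Co_exists (hmid c) (hmid d)
  let f : (ZMod 2 × ZMod 2) × (ZMod 2 × ZMod 2) → S.EE hε := fun p =>
    ⟨zy z y p.1.1 p.1.2 * L p.2.1 p.2.2, p.2.1, p.2.2, by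
      have := S.Co_mul (S.Co_zy p.1.1 p.1.2) (hL p.2.1 p.2.2)
      rwa [zero_add, zero_add] at this⟩
  have hf : Function.Bijective f := by
    constructor
    · rintro ⟨⟨i, j⟩, c, d⟩ ⟨⟨i', j'⟩, c', d'⟩ e
      have e1 : zy z y i j * L c d = zy z y i' j' * L c' d' := congrArg Subtype.val e
      have c1 := S.Co_mul (S.Co_zy i j) (hL c d)
      have c2 := S.Co_mul (S.Co_zy i' j') (hL c' d')
      rw [zero_add, zero_add] at c1 c2
      rw [e1] at c1
      obtain ⟨h1, h2⟩ := S.Co_unique c1 c2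
      have inj : ∀ a b : ZMod 2, a • ε = b • ε → a = b := fun a b e => by
        refine CharTwo.add_eq_zero.1 (smul_eq_zero_cases hε ?_)
        rw [add_smul, e, vadd_self]
      obtain rfl := inj _ _ h1
      obtain rfl := inj _ _ h2
      obtain ⟨rfl, rfl⟩ := S.zy_inj (mul_right_cancel e1)
      rfl
    · rintro ⟨a, c, d, ha⟩
      obtain ⟨i, j, e⟩ := S.Co_coset (hL c d) ha
      exact ⟨((i, j), c, d), Subtype.ext e.symm⟩
  rw [← Nat.card_congr (Equiv.ofBijective f hf)]
  simp only [Nat.card_prod, Nat.card_zmod]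

theorem u_normalises {a : G} (ha : a ∈ NT z t) : u * a * u⁻¹ ∈ NT z t :=
  S.NT_normal (mem_HT.2 S.ut) ha

/-- The involution `u` centralises the normaliser of each of the subgroups of order sixteen. -/
theorem u_centralises_normalizer {ε : V} (hε : Sing ε) {m : G} (hmN : m ∈ NT z t)
    (hm : ∀ a ∈ S.EE hε, m * a * m⁻¹ ∈ S.EE hε) : m * u = u * m := by
  classical
  haveI : Fact (Nat.Prime 2) := ⟨Nat.prime_two⟩
  obtain ⟨F, iF, iF', hF, ⟨f⟩⟩ := S.NT_iso
  letI := iF
  letI := iF'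
  set E := S.EE hε with hE
  have hue : ∀ a ∈ E, u * a = a * u := fun a ha => (S.SS_comm (S.EE_le hε ha)).2.1.symm
  let N : Subgroup G :=
    { carrier := {m | m ∈ NT z t ∧ ∀ a, (m * a * m⁻¹ ∈ E ↔ a ∈ E)}
      one_mem' := ⟨one_mem _, fun a => by simp⟩
      mul_mem' := fun {m m'} hm hm' => ⟨mul_mem hm.1 hm'.1, fun a => by
        rw [show m * m' * a * (m * m')⁻¹ = m * (m' * a * m'⁻¹) * m⁻¹ by group, hm.2, hm'.2]⟩
      inv_mem' := fun {m} hm => ⟨inv_mem hm.1, fun a => by
        rw [← hm.2 (m⁻¹ * a * m⁻¹⁻¹), show m * (m⁻¹ * a * m⁻¹⁻¹) * m⁻¹ = a by group]⟩ }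
  have hmemN : ∀ m ∈ NT z t, (∀ a ∈ E, m * a * m⁻¹ ∈ E) → m ∈ N := by
    intro m hmN hm
    refine ⟨hmN, fun a => ⟨fun h => ?_, hm a⟩⟩
    let g : E → E := fun b => ⟨m * b * m⁻¹, hm b b.2⟩
    have hg : Function.Surjective g := Finite.surjective_of_injective fun b c e =>
      Subtype.ext (by simpa [g] using congrArg Subtype.val e)
    obtain ⟨b, hb⟩ := hg ⟨_, h⟩
    have hab : (b : G) = a := by simpa [g] using congrArg Subtype.val hb
    exact hab ▸ b.2
  have hSN : S.SS ≤ N := fun s hs => by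
    refine hmemN s (S.SS_le_NT hs) ?_
    rintro a ⟨c, d, ha⟩
    obtain ⟨v, w, hco, -, -⟩ := hs
    rw [S.Co_conj hco ha]
    exact mul_mem (S.zy_EE hε _ _) ⟨c, d, ha⟩
  -- the subgroup generated by `u` and the elementary abelian group
  let U : Subgroup G :=
    { carrier := {a | a ∈ E ∨ u * a ∈ E}
      one_mem' := Or.inl (one_mem _)
      mul_mem' := by
        rintro a b (ha | ha) (hb | hb)
        · exact Or.inl (mul_mem ha hb)
        · refine Or.inr ?_
          rw [← mul_assoc, hue a ha, mul_assoc]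
          exact mul_mem ha hb
        · exact Or.inr (by rw [← mul_assoc]; exact mul_mem ha hb)
        · refine Or.inl ?_
          have h1 : a = u * (u * a) := by rw [← mul_assoc, S.u_sq, one_mul]
          have h2 : a * b = (u * a) * (u * b) := by
            conv_lhs => rw [h1, hue _ ha]
            group
          rw [h2]
          exact mul_mem ha hb
      inv_mem' := by
        rintro a (ha | ha)
        · exact Or.inl (inv_mem ha)
        · refine Or.inr ?_
          have h3 : a⁻¹ = (u * a)⁻¹ * u := by group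
          rw [h3, ← mul_assoc, hue _ (inv_mem ha), mul_assoc, S.u_sq, mul_one]
          exact inv_mem ha }
  have hUab : ∀ a ∈ U, ∀ b ∈ U, a * b = b * a := by
    have hsplit : ∀ a ∈ U, ∃ j : ℕ, ∃ e ∈ E, a = u ^ j * e := by
      rintro a (ha | ha)
      · exact ⟨0, a, ha, by simp⟩
      · exact ⟨1, u * a, ha, by rw [pow_one, ← mul_assoc, S.u_sq, one_mul]⟩
    intro a ha b hb
    obtain ⟨i, e, he, rfl⟩ := hsplit a ha
    obtain ⟨j, e', he', rfl⟩ := hsplit b hb
    have c1 : Commute (u ^ i) (u ^ j) := Commute.pow_pow_self u i j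
    have c2 : Commute (u ^ i) e' := (show Commute u e' from hue e' he').pow_left i
    have c3 : Commute e (u ^ j) := (show Commute e u from (hue e he).symm).pow_right j
    have c4 : Commute e e' := S.EE_comm hε e he e' he'
    exact ((c1.mul_right c2).mul_left (c3.mul_right c4)).eq
  have hdE : ∀ m ∈ N, m * u * m⁻¹ * u⁻¹ ∈ E := by
    intro m hm
    have h1 : m * u * m⁻¹ * u⁻¹ ∈ NT z t := by
      rw [show m * u * m⁻¹ * u⁻¹ = m * (u * m⁻¹ * u⁻¹) by group]
      exact mul_mem hm.1 (S.u_normalises (inv_mem hm.1))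
    -- it centralises the elementary abelian group
    have h2 : ∀ a ∈ E, (m * u * m⁻¹ * u⁻¹) * a = a * (m * u * m⁻¹ * u⁻¹) := by
      intro a ha
      refine comm_mul ?_ (comm_inv (hue a ha))
      have hb : m⁻¹ * a * m⁻¹⁻¹ ∈ E := ((N.inv_mem hm).2 a).2 ha
      exact PairSetting.conj_comm (g := m) rfl (by group) (hue _ hb)
    have hzy : zy z y 1 0 = z := by simp [zy]
    have hz : (m * u * m⁻¹ * u⁻¹) * z = z * (m * u * m⁻¹ * u⁻¹) :=
      h2 z (hzy ▸ S.zy_EE hε 1 0)
    have hS : m * u * m⁻¹ * u⁻¹ ∈ S.SS := by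
      rw [← S.NT_sylow.1]
      exact ⟨h1, mem_RR.2 ⟨hz, mem_HT.1 (S.NT_le h1)⟩⟩
    obtain ⟨v, w, hco, hv, hw⟩ := hS
    obtain ⟨hvm, hwm⟩ := S.Co_mid hco
    obtain ⟨hεm, -⟩ := sing_spec hε
    obtain ⟨a, ha⟩ := S.Co_exists hεm mid_zero
    obtain ⟨b, hb⟩ := S.Co_exists mid_zero hεm
    have haE : a ∈ E := ⟨1, 0, by rw [one_smul, zero_smul]; exact ha⟩
    have hbE : b ∈ E := ⟨0, 1, by rw [one_smul, zero_smul]; exact hb⟩
    obtain ⟨⟨c, hc⟩, d, hd⟩ := sing_self v hvm w hwm hv hw ε (S.EE_mem_list hε)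
      ((S.Co_commute hco ha).1 (h2 a haE)).2 ((S.Co_commute hco hb).1 (h2 b hbE)).1
    exact ⟨c, d, by rw [hc, hd]; exact hco⟩
  obtain ⟨e, he, hfix⟩ := exists_fixed_in_coset (U := U) (E := E) (N := N) (S := S.SS) hUab
    (fun a ha => Or.inl ha) (Or.inr (by rw [S.u_sq]; exact one_mem _)) S.u_sq
    (fun m hm a ha => by
      rcases ha with ha | ha
      · exact Or.inl ((hm.2 a).2 ha)
      · refine Or.inr ?_
        have h1 : u⁻¹ = u := inv_eq_of_mul_eq_one_right S.u_sq
        have e1 : u * (m * a * m⁻¹) = (u * m * u⁻¹ * m⁻¹) * (m * (u * a) * m⁻¹) := by group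
        rw [e1]
        refine mul_mem ?_ ((hm.2 _).2 ha)
        have := inv_mem (hdE m hm)
        rwa [show (m * u * m⁻¹ * u⁻¹)⁻¹ = u * m * u⁻¹ * m⁻¹ by group] at this)
    hdE hSN (fun s hs => (S.SS_comm hs).2.1) (by
      intro hdiv
      refine S.NT_sylow.2 ?_
      rw [← Subgroup.relIndex_mul_relIndex S.SS N (NT z t) hSN fun a ha => ha.1]
      exact hdiv.mul_right _)
  -- the element lies in the centre of the Sylow subgroup
  have heD : ∃ i j, e = zy z y i j := by
    refine S.Co_zero ?_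
    obtain ⟨v, w, hco, hv, hw⟩ := S.EE_le hε he
    obtain ⟨hvm, hwm⟩ := S.Co_mid hco
    by_contra hne
    have h0 : v ≠ 0 ∨ w ≠ 0 := by
      by_contra hh
      push Not at hh
      obtain ⟨rfl, rfl⟩ := hh
      exact hne hco
    obtain ⟨p, hp, hC⟩ := noncomm_perp v hvm w hwm hv hw h0
    obtain ⟨m1, m2, p1, p2, -, -⟩ := gen_ok p hp
    obtain ⟨b, hb⟩ := S.Co_exists m1 m2
    have hbS : b ∈ S.SS := ⟨_, _, hb, p1, p2⟩
    have h1 := hfix b (hSN hbS)
    rw [← mul_assoc, (S.SS_comm hbS).2.1, mul_assoc, mul_assoc] at h1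
    obtain ⟨c1, c2⟩ := (S.Co_commute hco hb).1 (mul_left_cancel h1).symm
    rcases hC with hC | hC
    · exact hC c1
    · exact hC c2
  obtain ⟨i, j, rfl⟩ := heD
  -- `n` normalises the elementary abelian group
  have hnE : ∀ a ∈ E, n * a * n⁻¹ ∈ E := by
    rintro a ⟨c, d, ha⟩
    obtain ⟨-, -, -, -, e5, e6⟩ := sing_four ε (S.EE_mem_list hε) c d c d
    have := S.nσ a _ _ ha
    rw [e5, e6] at this
    exact ⟨d, c + d, this⟩
  have hnN : ∀ m ∈ N, n⁻¹ * m * n ∈ N := by
    intro m hm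
    refine hmemN _ ?_ fun a ha => ?_
    · have := S.NT_normal ((HT t).inv_mem S.nHT) hm.1
      rwa [inv_inv] at this
    · let g : E → E := fun b => ⟨n * b * n⁻¹, hnE b b.2⟩
      have hg : Function.Surjective g := Finite.surjective_of_injective fun b c e =>
        Subtype.ext (by simpa [g] using congrArg Subtype.val e)
      obtain ⟨b, hb⟩ := hg ⟨_, (hm.2 _).2 (hnE a ha)⟩
      have e1 : n * (b : G) * n⁻¹ = m * (n * a * n⁻¹) * m⁻¹ := congrArg Subtype.val hb
      rw [show n⁻¹ * m * n * a * (n⁻¹ * m * n)⁻¹ = n⁻¹ * (m * (n * a * n⁻¹) * m⁻¹) * n by group, ← e1,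
        show n⁻¹ * (n * (b : G) * n⁻¹) * n = b by group]
      exact b.2
  have hdd : ∀ m ∈ N, m * (zy z y i j * (n * zy z y i j * n⁻¹)) =
      zy z y i j * (n * zy z y i j * n⁻¹) * m := by
    intro m hm
    have h1 := hfix m hm
    have h2 : m * (u * (n * zy z y i j * n⁻¹)) = u * (n * zy z y i j * n⁻¹) * m := by
      have h3 := hfix _ (hnN m hm)
      have h4 : n * (u * zy z y i j) * n⁻¹ = u * (n * zy z y i j * n⁻¹) := by
        rw [show n * (u * zy z y i j) * n⁻¹ = (n * u * n⁻¹) * (n * zy z y i j * n⁻¹) by group,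
          conj_fix_iff.2 S.nu]
      exact PairSetting.conj_comm (g := n) (by group) h4 h3
    have h5 : zy z y i j * (n * zy z y i j * n⁻¹)
        = (u * zy z y i j) * (u * (n * zy z y i j * n⁻¹)) := by
      rw [show u * zy z y i j = zy z y i j * u from
        hue _ (S.zy_EE hε i j), show zy z y i j * u * (u * (n * zy z y i j * n⁻¹))
        = zy z y i j * (u * u) * (n * zy z y i j * n⁻¹) by group, S.u_sq, mul_one]
    rw [h5, ← mul_assoc, h1, mul_assoc, h2, ← mul_assoc]
  have hnb : n * zy z y i j * n⁻¹ ∈ E := hnE _ (S.zy_EE hε i j)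
  by_cases hb1 : zy z y i j * (n * zy z y i j * n⁻¹) = 1
  · -- fixed by `n`, so trivial
    have h0 : zy z y i j = 1 := by
      have e1 : n * zy z y i j * n⁻¹ = zy z y i j := by
        calc n * zy z y i j * n⁻¹
            = zy z y i j * (zy z y i j * (n * zy z y i j * n⁻¹)) := by
              rw [← mul_assoc (zy z y i j), S.EE_sq hε _ (S.zy_EE hε i j), one_mul]
          _ = zy z y i j := by rw [hb1, mul_one]
      rcases z2_cases i with rfl | rfl <;> rcases z2_cases j with rfl | rfl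
      · simp [zy]
      · exfalso
        simp only [zy, zp_zero, zp_one, one_mul, S.ny] at e1
        exact S.toSetting.z_ne (mul_eq_right.1 e1)
      · exfalso
        simp only [zy, zp_zero, zp_one, mul_one, S.nz] at e1
        have := congrArg θ e1
        rw [S.θy, S.toSetting.θ_z] at this
        exact absurd this (by decide)
      · exfalso
        simp only [zy, zp_one] at e1
        rw [show n * (z * y) * n⁻¹ = (n * z * n⁻¹) * (n * y * n⁻¹) by group, S.nz, S.ny, ← mul_assoc,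
          S.yz_comm, mul_assoc, S.y_sq, mul_one] at e1
        exact S.goody.ne_one (left_eq_mul.1 e1)
    rw [h0, mul_one] at hfix
    exact hfix m (hmemN m hmN hm)
  · -- the normaliser would be a `2`-group
    exfalso
    set b := zy z y i j * (n * zy z y i j * n⁻¹) with hb
    have hbE : b ∈ E := mul_mem (S.zy_EE hε i j) hnb
    have hN2 : IsPGroup 2 N := (S.NT_centralizer (S.SS_le_NT (S.EE_le hε hbE))
      (S.EE_sq hε b hbE) hb1).to_le fun m hm =>
        ⟨Subgroup.mem_centralizer_singleton_iff.2 (hdd m hm), hm.1⟩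
    obtain ⟨T, hT⟩ := ConjFunctor.exists_sylow_subgroupOf S.SS_isPGroup S.SS_le_NT S.NT_sylow.2
    have hlist := S.EE_mem_list hε
    obtain ⟨ε', hε', hne⟩ : ∃ ε', ∃ h' : Sing ε', ε' ≠ ε := by
      rcases hε with rfl | rfl
      · exact ⟨f2V, Or.inr rfl, by decide⟩
      · exact ⟨e2V, Or.inl rfl, by decide⟩
    have hEE' : S.EE hε ≠ S.EE hε' := by
      intro e
      obtain ⟨a, ha⟩ := S.Co_exists (sing_spec hε).1 mid_zero
      have hm : a ∈ S.EE hε' := e ▸ ⟨1, 0, by rw [one_smul, zero_smul]; exact ha⟩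
      obtain ⟨c, d, hc⟩ := hm
      have h1 := (S.Co_unique ha hc).1
      rcases z2_cases c with rfl | rfl
      · rw [zero_smul] at h1; exact (sing_spec hε).2.2.2.1 h1
      · rw [one_smul] at h1; exact hne h1.symm
    have hsub : ∀ {ε₁ : V} (h₁ : Sing ε₁), S.EE h₁ ≤ NT z t := fun h₁ =>
      (S.EE_le h₁).trans S.SS_le_NT
    obtain ⟨-, -, -, -, π, hπs, -⟩ := InvChar.PSLThreeFour.pair_facts hF f T
      (E := (S.EE hε).subgroupOf (NT z t)) (E' := (S.EE hε').subgroupOf (NT z t))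
      (fun e => hEE' (by
        have := congrArg (Subgroup.map (NT z t).subtype) e
        rwa [Subgroup.map_subgroupOf_eq_of_le (hsub hε), Subgroup.map_subgroupOf_eq_of_le (hsub hε')]
          at this))
      (by rw [hT]; exact Subgroup.comap_mono (S.EE_le hε))
      (by rw [hT]; exact Subgroup.comap_mono (S.EE_le hε'))
      (fun a ha => Subtype.ext (by rw [Subgroup.coe_pow, pow_two]; exact S.EE_sq hε _ ha))
      (fun a ha => Subtype.ext (by rw [Subgroup.coe_pow, pow_two]; exact S.EE_sq hε' _ ha))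
      (by rw [Nat.card_congr (Subgroup.subgroupOfEquivOfLe (hsub hε)).toEquiv, S.card_EE hε])
      (by rw [Nat.card_congr (Subgroup.subgroupOfEquivOfLe (hsub hε')).toEquiv, S.card_EE hε'])
    have h2 : IsPGroup 2 (Matrix.ProjectiveSpecialLinearGroup (Fin 2) F) := by
      refine IsPGroup.of_surjective (fun a => ?_) π hπs
      have haN : ((a : NT z t) : G) ∈ N := hmemN _ (a : NT z t).2 fun b hb => by
        have := (Subgroup.mem_normalizer_iff.1 a.2 ⟨b, hsub hε hb⟩).1 hb
        exact this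
      obtain ⟨j, hj⟩ := hN2 ⟨_, haN⟩
      exact ⟨j, Subtype.ext (Subtype.ext (by simpa using congrArg Subtype.val hj))⟩
    obtain ⟨j, hj⟩ := h2.exists_card_eq
    rw [ClassicalLinear.card_PSL_two_card_four hF] at hj
    have : 3 ∣ 2 ^ j := hj ▸ (by norm_num)
    exact absurd (Nat.prime_three.dvd_of_dvd_pow this) (by norm_num)

/-- The involution `u` centralises the copy of `PSL₃(4)`. -/
theorem u_centralises {a : G} (ha : a ∈ NT z t) : a * u = u * a := by
  classical
  haveI : Fact (Nat.Prime 2) := ⟨Nat.prime_two⟩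
  obtain ⟨F, iF, iF', hF, ⟨f⟩⟩ := S.NT_iso
  letI := iF
  letI := iF'
  obtain ⟨T, hT⟩ := ConjFunctor.exists_sylow_subgroupOf S.SS_isPGroup S.SS_le_NT S.NT_sylow.2
  let he : Sing e2V := Or.inl rfl
  let hf : Sing f2V := Or.inr rfl
  have hsub : ∀ {ε : V} (hε : Sing ε), S.EE hε ≤ NT z t := fun hε =>
    (S.EE_le hε).trans S.SS_le_NT
  have hne : (S.EE he).subgroupOf (NT z t) ≠ (S.EE hf).subgroupOf (NT z t) := by
    intro e
    obtain ⟨b, hb⟩ := S.Co_exists mid_e2V mid_zero
    have hbE : b ∈ S.EE he := ⟨1, 0, by rw [one_smul, zero_smul]; exact hb⟩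
    have : (⟨b, hsub he hbE⟩ : NT z t) ∈ (S.EE hf).subgroupOf (NT z t) := e ▸ hbE
    obtain ⟨c, d, hc⟩ := this
    have h1 := (S.Co_unique hb hc).1
    revert h1
    rcases z2_cases c with rfl | rfl <;> decide
  have facts := fun {E E' : Subgroup (NT z t)} (hE : E ≠ E') (h1 : E ≤ T) (h2 : E' ≤ T)
      (h3 : ∀ e ∈ E, e ^ 2 = 1) (h4 : ∀ e ∈ E', e ^ 2 = 1) (h5 : Nat.card E = 16)
      (h6 : Nat.card E' = 16) => InvChar.PSLThreeFour.pair_facts hF f T hE h1 h2 h3 h4 h5 h6
  have hleT : ∀ {ε : V} (hε : Sing ε), (S.EE hε).subgroupOf (NT z t) ≤ T := fun hε => by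
    rw [hT]; exact Subgroup.comap_mono (S.EE_le hε)
  have hsq : ∀ {ε : V} (hε : Sing ε), ∀ b ∈ (S.EE hε).subgroupOf (NT z t), b ^ 2 = 1 :=
    fun hε b hb => Subtype.ext (by rw [Subgroup.coe_pow, pow_two]; exact S.EE_sq hε _ hb)
  have hcard : ∀ {ε : V} (hε : Sing ε), Nat.card ((S.EE hε).subgroupOf (NT z t)) = 16 := fun hε => by
    rw [Nat.card_congr (Subgroup.subgroupOfEquivOfLe (hsub hε)).toEquiv, S.card_EE hε]
  set N₁ := Subgroup.normalizer ((S.EE he).subgroupOf (NT z t) : Set (NT z t))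
  set N₂ := Subgroup.normalizer ((S.EE hf).subgroupOf (NT z t) : Set (NT z t))
  obtain ⟨hsup, hTN, -, -, π, hπs, hπk⟩ :=
    facts hne (hleT he) (hleT hf) (hsq he) (hsq hf) (hcard he) (hcard hf)
  obtain ⟨hsup', hTN', -, -, π', hπ's, hπ'k⟩ :=
    facts hne.symm (hleT hf) (hleT he) (hsq hf) (hsq he) (hcard hf) (hcard he)
  let M : Subgroup (NT z t) := (Subgroup.centralizer ({u} : Set G)).subgroupOf (NT z t)
  have hle : ∀ {ε : V} (hε : Sing ε),
      Subgroup.normalizer ((S.EE hε).subgroupOf (NT z t) : Set (NT z t)) ≤ M := fun hε m hm => by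
    refine Subgroup.mem_centralizer_singleton_iff.2 (S.u_centralises_normalizer hε m.2 fun b hb => ?_)
    exact (Subgroup.mem_normalizer_iff.1 hm ⟨b, hsub hε hb⟩).1 hb
  have hc1 : ∀ {E : Subgroup (NT z t)} (π : ↥(Subgroup.normalizer (E : Set (NT z t))) →*
      Matrix.ProjectiveSpecialLinearGroup (Fin 2) F), Function.Surjective π →
      (∀ g, π g = 1 ↔ (g : NT z t) ∈ E) → Nat.card E = 16 →
      Nat.card (Subgroup.normalizer (E : Set (NT z t))) = 960 := by
    intro E π hs hk hc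
    have h1 := π.ker.card_mul_index
    rw [Subgroup.index_ker, MonoidHom.range_eq_top.2 hs, Subgroup.card_top,
      ClassicalLinear.card_PSL_two_card_four hF,
      show π.ker = E.subgroupOf (Subgroup.normalizer (E : Set (NT z t))) from Subgroup.ext fun g => hk g,
      Nat.card_congr (Subgroup.subgroupOfEquivOfLe Subgroup.le_normalizer).toEquiv, hc] at h1
    omega
  have h1 := hc1 π hπs hπk (hcard he)
  have h2 := hc1 π' hπ's hπ'k (hcard hf)
  -- the two normalisers differ
  have hN12 : N₁ ≠ N₂ := by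
    intro e
    have hnorm : ((T : Subgroup (NT z t)).subgroupOf N₁).Normal := by
      refine ⟨fun b hb g => ?_⟩
      have hb' : (b : NT z t) ∈ (T : Subgroup (NT z t)) := hb
      show (g : NT z t) * b * (g : NT z t)⁻¹ ∈ (T : Subgroup (NT z t))
      rw [← hsup] at hb' ⊢
      have hmap : ((S.EE he).subgroupOf (NT z t) ⊔ (S.EE hf).subgroupOf (NT z t)).map
          (MulAut.conj (g : NT z t)).toMonoidHom ≤
          (S.EE he).subgroupOf (NT z t) ⊔ (S.EE hf).subgroupOf (NT z t) := by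
        rw [Subgroup.map_sup]
        refine sup_le_sup ?_ ?_
        · rintro _ ⟨c, hc, rfl⟩
          exact (Subgroup.mem_normalizer_iff.1 g.2 c).1 hc
        · rintro _ ⟨c, hc, rfl⟩
          exact (Subgroup.mem_normalizer_iff.1 (e ▸ g.2 : (g : NT z t) ∈ N₂) c).1 hc
      exact hmap ⟨_, hb', rfl⟩
    haveI := hnorm
    haveI : ((T : Subgroup (NT z t)).subgroupOf N₁).map π |>.Normal :=
      Subgroup.Normal.map hnorm _ hπs
    have hT1 : Nat.card ((T : Subgroup (NT z t)).subgroupOf N₁) = 64 := by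
      rw [Nat.card_congr (Subgroup.subgroupOfEquivOfLe hTN).toEquiv, S.sylow_card]
    have hsimp : IsSimpleGroup (Matrix.ProjectiveSpecialLinearGroup (Fin 2) F) :=
      ClassicalLinear.isSimpleGroup_psl_fin le_rfl (fun _ => by rw [Nat.card_eq_fintype_card, hF])
    rcases hsimp.eq_bot_or_eq_top_of_normal _ this with hb | htop
    · have hle' : (T : Subgroup (NT z t)).subgroupOf N₁ ≤ π.ker := fun b hb' => by
        have : π b ∈ (⊥ : Subgroup (Matrix.ProjectiveSpecialLinearGroup (Fin 2) F)) := hb ▸ ⟨b, hb', rfl⟩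
        exact this
      have h64 := Subgroup.card_le_of_le hle'
      rw [hT1, show π.ker = ((S.EE he).subgroupOf (NT z t)).subgroupOf N₁ from Subgroup.ext fun g => hπk g,
        Nat.card_congr (Subgroup.subgroupOfEquivOfLe Subgroup.le_normalizer).toEquiv, hcard he] at h64
      omega
    · obtain ⟨j, hj⟩ := ((T.2.comap_subtype : IsPGroup 2 ((T : Subgroup (NT z t)).subgroupOf N₁)).map π).exists_card_eq
      rw [show Subgroup.map π (Subgroup.comap N₁.subtype (T : Subgroup (NT z t))) = ⊤ from htop,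
        Subgroup.card_top, ClassicalLinear.card_PSL_two_card_four hF] at hj
      have : 3 ∣ 2 ^ j := hj ▸ (by norm_num)
      exact absurd (Nat.prime_three.dvd_of_dvd_pow this) (by norm_num)
  -- so the centraliser has index one
  suffices hM : M = ⊤ by
    have : (⟨a, ha⟩ : NT z t) ∈ M := hM ▸ Subgroup.mem_top _
    exact Subgroup.mem_centralizer_singleton_iff.1 this
  by_contra hMne
  have hlt : N₁ < M := lt_of_le_of_ne (hle he) fun e => hN12 (by
    symm
    exact Subgroup.eq_of_le_of_card_ge (e ▸ hle hf : N₂ ≤ N₁) (h1.trans h2.symm).le)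
  have hL := card_pslFour hF f
  have hd : 960 ∣ Nat.card M := h1 ▸ Subgroup.card_dvd_of_le hlt.le
  have hlt' : 960 < Nat.card M :=
    h1 ▸ lt_of_le_of_ne (Subgroup.card_le_of_le hlt.le) fun e =>
      hlt.ne (Subgroup.eq_of_le_of_card_ge hlt.le e.ge)
  obtain ⟨j, hj⟩ := hd
  have hMi := M.card_mul_index
  rw [hL, hj] at hMi
  have hidx : M.index ≤ 7 := by
    have hj2 : 2 ≤ j := by omega
    have h21 : j * M.index = 21 := by
      have : 960 * (j * M.index) = 960 * 21 := by rw [← mul_assoc, hMi]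
      omega
    have hdvd : M.index ∣ 21 := ⟨j, by rw [mul_comm, h21]⟩
    have h10 : M.index ≤ 10 := by nlinarith
    interval_cases hi : M.index <;> norm_num at hdvd <;> norm_num
  haveI : IsSimpleGroup (NT z t) := by
    haveI := ClassicalLinear.isSimpleGroup_psl_fin (F := F) (n := 3) (by norm_num) (fun h => by omega)
    exact f.isSimpleGroup
  let φ : NT z t →* Equiv.Perm (NT z t ⧸ M) := MulAction.toPermHom (NT z t) (NT z t ⧸ M)
  rcases IsSimpleGroup.eq_bot_or_eq_top_of_normal φ.ker inferInstance with hk | hk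
  · have hd2 := Subgroup.card_dvd_of_injective φ ((φ.ker_eq_bot_iff).1 hk)
    rw [hL, Nat.card_perm] at hd2
    have h5040 : (Nat.card (NT z t ⧸ M)).factorial ∣ 5040 := by
      have := Nat.factorial_dvd_factorial hidx
      exact this.trans (by norm_num [Nat.factorial])
    exact absurd (hd2.trans h5040) (by norm_num)
  · refine hMne (eq_top_iff.2 fun b _ => ?_)
    have hb : φ b = 1 := by
      rw [← MonoidHom.mem_ker, hk]; exact Subgroup.mem_top _
    have h3 : φ b ((1 : NT z t) : NT z t ⧸ M) = ((1 : NT z t) : NT z t ⧸ M) := by rw [hb]; rfl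
    have h4 : ((b * 1 : NT z t) : NT z t ⧸ M) = ((1 : NT z t) : NT z t ⧸ M) := h3
    rw [QuotientGroup.eq] at h4
    simpa using h4

end Second

end CfsgLib.SuzukiType
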