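/-
A group with an involution centraliser isomorphic to GL(2,3), order divisible by 9 but not by 27,
is isomorphic to M₁₁.
-/
import Cfsg.Agent.Lib.Involutions.GLTwoThree.Model
import Cfsg.Agent.Lib.Involutions.BrauerSuzuki
import Cfsg.Agent.Lib.Mathieu.Order7920.Steiner
import Cfsg.Agent.Lib.OrderDegrees.M11NSE
import Cfsg.Agent.Lib.Transfer.Residual
import Cfsg.Agent.Lib.Cores.PCore

set_option autoImplicit false

open Cfsg

namespace CfsgLib.SuzukiType.ThreeQuot

open CfsgLib.Involutions CfsgLib.Involutions.GLTwoThree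

universe u

/-- Every element of the quaternion subgroup is a product of three elements of order dividing 3. -/
theorem quat_three : ∀ i : Idx, inQ i → ∃ a : Idx, powI a 3 = 0 ∧
    ∃ b : Idx, powI b 3 = 0 ∧ ∃ c : Idx, powI c 3 = 0 ∧ mulI (mulI a b) c = i := by
  decide +kernel

theorem inQ_negI : inQ 31 = true := by decide +kernel

/-- No subgroup of order 3 is normal. -/
theorem three_moved : ∀ i : Idx, powI i 3 = 0 → i ≠ 0 →
    ∃ c : Idx, mulI (mulI c i) (invI c) ≠ i ∧ mulI (mulI c i) (invI c) ≠ invI i := by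
  decide +kernel

variable {G : Type u} [Group G] [Fintype G] {t : G}
  (e : Subgroup.centralizer ({t} : Set G) ≃* M)

theorem mem_iff_commute {g : G} :
    g ∈ Subgroup.centralizer ({t} : Set G) ↔ g * t = t * g :=
  Subgroup.mem_centralizer_singleton_iff

/-- The quaternion subgroup lies in any subgroup containing all elements of order prime to 2. -/
theorem pull_quatQ_le : pull e quatQ ≤ pResidual 2 G := by
  intro x hx
  obtain ⟨hC, hQ⟩ := (mem_pull e).1 hx
  obtain ⟨a, ha, b, hb, c, hc, habc⟩ := quat_three _ hQ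
  have key : ∀ i : Idx, powI i 3 = 0 → (e.symm (el i) : G) ∈ pResidual 2 G := fun i hi => by
    refine CfsgLib.Transfer.mem_pResidual_of_coprime (Nat.Coprime.coprime_dvd_left
      (orderOf_dvd_of_pow_eq_one (n := 3) ?_) (by norm_num))
    rw [← SubmonoidClass.coe_pow, ← map_pow,
      show el i ^ 3 = 1 by rw [eq_iff, idx_pow, idx_el, idx_one, hi], map_one, Subgroup.coe_one]
  have : (⟨x, hC⟩ : Subgroup.centralizer ({t} : Set G)) =
      e.symm (el a) * e.symm (el b) * e.symm (el c) := by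
    rw [← map_mul, ← map_mul, el_mul, el_mul, habc, el_idx, e.symm_apply_apply]
  have hx' : x = (e.symm (el a) : G) * e.symm (el b) * e.symm (el c) := congrArg Subtype.val this
  rw [hx']
  exact mul_mem (mul_mem (key a ha) (key b hb)) (key c hc)

include e in
theorem mem_pull_quatQ_self (ht : orderOf t = 2) : t ∈ pull e quatQ := by
  have htC : t ∈ Subgroup.centralizer ({t} : Set G) := mem_iff_commute.2 rfl
  refine (mem_pull e).2 ⟨htC, ?_⟩
  rw [e_t e ht]
  show inQ (idx negI) = true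
  rw [idx_negI]
  exact inQ_negI

include e in
theorem pResidual_eq_top (ht : orderOf t = 2) (h9 : 9 ∣ Nat.card G) (h27 : ¬ 27 ∣ Nat.card G) :
    pResidual 2 G = ⊤ := by
  classical
  haveI : Fact (Nat.Prime 2) := ⟨Nat.prime_two⟩
  haveI : Fact (Nat.Prime 3) := ⟨Nat.prime_three⟩
  by_contra hK
  haveI hKn : (pResidual 2 G).Normal := CfsgLib.Transfer.pResidual_normal
  set K := pResidual 2 G with hKdef
  -- the quaternion group is a Sylow 2-subgroup of `K`
  have h16 : ¬ 16 ∣ Nat.card K := fun h => by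
    obtain ⟨n, hn⟩ := (CfsgLib.Transfer.isPGroup_quotient_pResidual (G := G) (p := 2)).exists_card_eq
    have hci := K.card_mul_index
    rw [Subgroup.index_eq_card, hn] at hci
    rcases n with _ | n
    · exact hK (Subgroup.index_eq_one.1 (by rw [Subgroup.index_eq_card, hn, pow_zero]))
    · obtain ⟨m, hm⟩ := h
      exact (card_mod e ht).2 ⟨m * 2 ^ n, by rw [← hci, hm, pow_succ]; ring⟩
  set Q : Subgroup K := (pull e quatQ).subgroupOf K with hQdef
  have h8 : Nat.card Q = 8 :=
    (Nat.card_congr (Subgroup.subgroupOfEquivOfLe (pull_quatQ_le e)).toEquiv).trans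
      ((card_pull e _).trans card_quatQ)
  let S : Sylow 2 K := (IsPGroup.of_card (n := 3) (by rw [h8]; norm_num) : IsPGroup 2 Q).toSylow
    (fun h => h16 (by
      rw [← Q.card_mul_index, h8]
      obtain ⟨m, hm⟩ := h
      exact ⟨m, by rw [hm]; ring⟩))
  have htC : t ∈ Subgroup.centralizer ({t} : Set G) := mem_iff_commute.2 rfl
  have htK : t ∈ K := pull_quatQ_le e (mem_pull_quatQ_self e ht)
  have htK2 : orderOf (⟨t, htK⟩ : K) = 2 := by rw [Subgroup.orderOf_mk, ht]
  -- `t` is the only involution of the Sylow subgroup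
  have huniq : ∀ u : K, orderOf u = 2 → u ∈ S → u = ⟨t, htK⟩ := by
    intro u hu hmem
    obtain ⟨huC, huQ⟩ := (mem_pull e).1 (show (u : G) ∈ pull e quatQ from hmem)
    have hu' : orderOf (u : G) = 2 := by rw [Subgroup.orderOf_coe, hu]
    rcases quatQ_involution huQ (by
      rw [← map_mul]; exact e.map_eq_one_iff.2 (Subtype.ext (mul_self_eq_one hu'))) with h | h
    · exact absurd (congrArg Subtype.val (e.map_eq_one_iff.1 h)) (ne_one hu')
    · rw [← e_t e ht htC] at h
      exact Subtype.ext (congrArg Subtype.val (e.injective h) : (u : G) = t)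
  -- Z*: `t` is central modulo the odd core `O` of `K`
  haveI : (oddCore ↥K).Characteristic := CfsgLib.Cores.pPrimeCore_characteristic 2 ↥K
  set O : Subgroup G := (oddCore ↥K).map K.subtype with hOdef
  haveI hOn : O.Normal := by rw [hOdef]; infer_instance
  have hOodd : Odd (Nat.card O) := by
    rw [hOdef, Subgroup.card_map_of_injective K.subtype_injective]
    exact CfsgLib.Cores.odd_card_oddCore
  have hzs : ∀ k ∈ K, t * k * t⁻¹ * k⁻¹ ∈ O := fun k hk =>
    ⟨_, zstar_isolated S htK2 (fun g hg => huniq _ ((orderOf_conj g _).trans htK2) hg) ⟨k, hk⟩,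
      rfl⟩
  have htinv : t⁻¹ = t := inv_eq_self ht
  have htt := mul_self_eq_one ht
  have hclass : ∀ g : G, g * t * g⁻¹ * t⁻¹ ∈ O := by
    intro g
    obtain ⟨c, hc⟩ := exists_conj_mem_of_involution S
      (t := (⟨g * t * g⁻¹, hKn.conj_mem t htK g⟩ : K))
      (by rw [Subgroup.orderOf_mk, orderOf_conj, ht])
    have h := congrArg Subtype.val (huniq _ ((orderOf_conj c _).trans
      (by rw [Subgroup.orderOf_mk, orderOf_conj, ht])) hc)
    have hgt : g * t * g⁻¹ = (c : G)⁻¹ * t * (c : G) := by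
      calc g * t * g⁻¹ = (c : G)⁻¹ * ((c : G) * (g * t * g⁻¹) * (c : G)⁻¹) * c := by group
        _ = (c : G)⁻¹ * t * c := by rw [show (c : G) * (g * t * g⁻¹) * (c : G)⁻¹ = t from h]
    have h1 := O.inv_mem (hzs _ (K.inv_mem c.2))
    rw [hgt]
    exact (show (c : G)⁻¹ * t * c * t⁻¹ = (t * (c : G)⁻¹ * t⁻¹ * ((c : G)⁻¹)⁻¹)⁻¹ by group) ▸ h1
  -- a square root gives `G = O C(t)`
  have hsplit : ∀ g : G, ∃ y ∈ O, t * y * t = y⁻¹ ∧ y⁻¹ * g ∈ Subgroup.centralizer ({t} : Set G) := by
    intro g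
    set x := g * t * g⁻¹ * t⁻¹ with hxdef
    have hxO : x ∈ O := hclass g
    have hxi : t * x * t = x⁻¹ := by
      rw [hxdef]
      simp only [mul_inv_rev, inv_inv, htinv]
      simp only [mul_assoc, htt, mul_one]
    obtain ⟨m, hm⟩ := hOodd.of_dvd_nat (O.orderOf_dvd_natCard hxO)
    refine ⟨x ^ (m + 1), O.pow_mem hxO _, ?_, ?_⟩
    · rw [← inv_pow, ← hxi]
      have := conj_pow (a := t) (b := x) (i := m + 1)
      rw [htinv] at this
      exact this.symm
    · have hsq : x ^ (m + 1) * x ^ (m + 1) = x := by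
        rw [← pow_add, show m + 1 + (m + 1) = orderOf x + 1 by omega, pow_succ, pow_orderOf_eq_one,
          one_mul]
      set y := x ^ (m + 1) with hy
      have hyi : t * y * t = y⁻¹ := by
        rw [hy, ← inv_pow, ← hxi]
        have := conj_pow (a := t) (b := x) (i := m + 1)
        rw [htinv] at this
        exact this.symm
      have hgt : g * t * g⁻¹ = y * t * y⁻¹ := by
        calc g * t * g⁻¹ = x * t := by rw [hxdef]; group
          _ = y * y * t := by rw [hsq]
          _ = y * t * (t * y * t) := by simp [mul_assoc, htt, ← mul_assoc t t]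
          _ = y * t * y⁻¹ := by rw [hyi]
      rw [mem_iff_commute]
      calc y⁻¹ * g * t = y⁻¹ * (g * t * g⁻¹) * g := by group
        _ = y⁻¹ * (y * t * y⁻¹) * g := by rw [hgt]
        _ = t * (y⁻¹ * g) := by group
  -- `O` meets `C(t)` trivially
  set C := Subgroup.centralizer ({t} : Set G) with hCdef
  have hOC : ∀ z ∈ O, z ∈ C → z = 1 := by
    intro z hzO hzC
    by_contra hz1
    have hcard : Nat.card ↥(O ⊓ C) ∣ 3 := by
      have h1 : Odd (Nat.card ↥(O ⊓ C)) :=
        hOodd.of_dvd_nat (Subgroup.card_dvd_of_le inf_le_left)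
      have h2 : Nat.card ↥(O ⊓ C) ∣ 2 ^ 4 * 3 := by
        have := Subgroup.card_dvd_of_le (inf_le_right : O ⊓ C ≤ C)
        rw [hCdef, card_centralizer e] at this
        exact this
      exact (Nat.Coprime.pow_right 4 (Nat.coprime_two_right.2 h1)).dvd_of_dvd_mul_left h2
    have hz3 : z ^ 3 = 1 := orderOf_dvd_iff_pow_eq_one.1
      ((Subgroup.orderOf_dvd_natCard _ (show z ∈ O ⊓ C from ⟨hzO, hzC⟩)).trans hcard)
    set i := idx (e ⟨z, hzC⟩) with hi
    have hei : (e.symm (el i) : G) = z := by rw [hi, el_idx, e.symm_apply_apply]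
    have hi3 : powI i 3 = 0 := by
      rw [hi, ← idx_pow, ← map_pow,
        show (⟨z, hzC⟩ : C) ^ 3 = 1 from Subtype.ext hz3, map_one, idx_one]
    have hi0 : i ≠ 0 := fun h => hz1 (by rw [← hei, h, el_zero, map_one, Subgroup.coe_one])
    obtain ⟨c, hc1, hc2⟩ := three_moved i hi3 hi0
    have hcC : (e.symm (el c) : G) ∈ C := (e.symm (el c)).2
    have hw : (e.symm (el c) : G) * z * (e.symm (el c) : G)⁻¹ ∈ O ⊓ C :=
      Subgroup.mem_inf.2 ⟨hOn.conj_mem z hzO _, C.mul_mem (C.mul_mem hcC hzC) (C.inv_mem hcC)⟩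
    have hcard3 : Nat.card ↥(O ⊓ C) = 3 := by
      rcases (Nat.dvd_prime Nat.prime_three).1 hcard with h | h
      · exact absurd (Subgroup.mem_bot.1 ((Subgroup.card_eq_one.1 h).le
          (show z ∈ O ⊓ C from ⟨hzO, hzC⟩))) hz1
      · exact h
    have hzord : orderOf z = 3 := orderOf_eq_prime hz3 hz1
    have hgen : Subgroup.zpowers z = O ⊓ C :=
      Subgroup.eq_of_le_of_card_ge (Subgroup.zpowers_le.2 ⟨hzO, hzC⟩)
        (by rw [hcard3, Nat.card_zpowers, hzord])
    rw [← hgen, ← mem_powers_iff_mem_zpowers, Submonoid.mem_powers_iff] at hw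
    obtain ⟨k, hk⟩ := hw
    rw [← pow_mod_orderOf, hzord] at hk
    have hconjI : idx (e (e.symm (el c) * ⟨z, hzC⟩ * (e.symm (el c))⁻¹)) =
        mulI (mulI c i) (invI c) := by
      rw [map_mul, map_mul, map_inv, e.apply_symm_apply, idx_mul, idx_mul, idx_inv, idx_el]
    have hval : ∀ w : C, (w : G) = (e.symm (el c) : G) * z * (e.symm (el c) : G)⁻¹ →
        idx (e w) = mulI (mulI c i) (invI c) := fun w hw => by
      rw [← hconjI]; exact congrArg (fun v => idx (e v)) (Subtype.ext hw)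
    rcases (show k % 3 = 0 ∨ k % 3 = 1 ∨ k % 3 = 2 by omega) with h | h | h <;> rw [h] at hk
    · rw [pow_zero] at hk
      exact hz1 (conj_eq_one_iff.1 hk.symm)
    · rw [pow_one] at hk
      exact hc1 (hval ⟨z, hzC⟩ hk).symm
    · have : z ^ 2 = z⁻¹ := eq_inv_of_mul_eq_one_left (by rw [← pow_succ]; exact hz3)
      rw [this] at hk
      exact hc2 ((hval (⟨z, hzC⟩⁻¹) hk).symm.trans (by rw [map_inv, idx_inv]))
  -- so `t` inverts `O`
  have hinv : ∀ z ∈ O, t * z * t = z⁻¹ := by
    intro z hz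
    obtain ⟨y, hy, hyi, hyz⟩ := hsplit z
    have h := hOC _ (mul_mem (O.inv_mem hy) hz) hyz
    rwa [inv_mul_eq_one.1 h] at hyi
  have hcomm : ∀ a ∈ O, ∀ b ∈ O, a * b = b * a := by
    intro a ha b hb
    have h := hinv _ (O.mul_mem ha hb)
    have h' : t * (a * b) * t = t * a * t * (t * b * t) := by
      simp [mul_assoc, ← mul_assoc t t, htt]
    rw [h', hinv a ha, hinv b hb, mul_inv_rev] at h
    calc a * b = (b⁻¹ * a⁻¹)⁻¹ := by group
      _ = (a⁻¹ * b⁻¹)⁻¹ := by rw [h]
      _ = b * a := by group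
  have hcardG : Nat.card G = Nat.card O * 48 := by
    rw [← card_centralizer e, ← Nat.card_prod]
    refine (Nat.card_eq_of_bijective (fun p : O × C => (p.1 : G) * p.2) ⟨?_, ?_⟩).symm
    · rintro ⟨a, c⟩ ⟨a', c'⟩ (h : (a : G) * c = a' * c')
      have h1 : (a' : G)⁻¹ * a = c' * (c : G)⁻¹ := by
        calc (a' : G)⁻¹ * a = (a' : G)⁻¹ * (a * c) * (c : G)⁻¹ := by group
          _ = c' * (c : G)⁻¹ := by rw [h]; group
      have h2 := hOC _ (mul_mem (O.inv_mem a'.2) a.2) (h1 ▸ mul_mem c'.2 (inv_mem c.2))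
      have ha : a' = a := Subtype.ext (inv_mul_eq_one.1 h2)
      subst ha
      exact Prod.ext rfl (Subtype.ext (mul_left_cancel h))
    · intro g
      obtain ⟨y, hy, -, hyg⟩ := hsplit g
      exact ⟨(⟨y, hy⟩, ⟨y⁻¹ * g, hyg⟩), mul_inv_cancel_left y g⟩
  -- the elements of order 3 in `O`
  let P : Subgroup G :=
    { carrier := {x | x ∈ O ∧ x ^ 3 = 1}
      mul_mem' := fun {a b} ha hb => ⟨O.mul_mem ha.1 hb.1, by
        rw [(show Commute a b from hcomm a ha.1 b hb.1).mul_pow, ha.2, hb.2, one_mul]⟩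
      one_mem' := ⟨O.one_mem, one_pow _⟩
      inv_mem' := fun {a} ha => ⟨O.inv_mem ha.1, by rw [inv_pow, ha.2, inv_one]⟩ }
  have h3O : 3 ∣ Nat.card O := by
    rw [hcardG] at h9
    omega
  obtain ⟨x, hx⟩ := exists_prime_orderOf_dvd_card' 3 h3O
  rw [← Subgroup.orderOf_coe] at hx
  have hx3 : (x : G) ^ 3 = 1 := hx ▸ pow_orderOf_eq_one _
  have hP : Nat.card P = 3 := by
    obtain ⟨j, hj⟩ := IsPGroup.exists_card_eq (p := 3) (G := P)
      (fun y => ⟨1, Subtype.ext (by rw [pow_one]; exact y.2.2)⟩)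
    have hPO : Nat.card P ∣ Nat.card O := Subgroup.card_dvd_of_le fun y hy => hy.1
    have hdvd : 3 ∣ Nat.card P := hx ▸ Subgroup.orderOf_dvd_natCard _ (show (x : G) ∈ P from ⟨x.2, hx3⟩)
    rcases j with _ | _ | j
    · rw [hj] at hdvd; norm_num at hdvd
    · rw [hj]; norm_num
    · refine absurd ?_ h27
      rw [hcardG]
      have h9P : 3 ^ 2 ∣ Nat.card O := (pow_dvd_pow 3 (by omega : 2 ≤ j + 1 + 1)).trans (hj ▸ hPO)
      exact (show 27 ∣ 3 ^ 2 * 48 by norm_num).trans (Nat.mul_dvd_mul_right h9P 48)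
  have hPx : Subgroup.zpowers (x : G) = P := Subgroup.eq_of_le_of_card_ge
    (Subgroup.zpowers_le.2 ⟨x.2, hx3⟩) (by rw [hP, Nat.card_zpowers, hx])
  -- elements of order 3 centralise it
  have hcent : ∀ a : G, a ^ 3 = 1 → a * x * a⁻¹ = x := by
    intro a ha
    have hm : a * x * a⁻¹ ∈ P := ⟨hOn.conj_mem _ x.2 a, by rw [conj_pow, hx3, mul_one, mul_inv_cancel]⟩
    rw [← hPx, ← mem_powers_iff_mem_zpowers, Submonoid.mem_powers_iff] at hm
    obtain ⟨k, hk⟩ := hm
    rw [← pow_mod_orderOf, hx] at hk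
    rcases (show k % 3 = 0 ∨ k % 3 = 1 ∨ k % 3 = 2 by omega) with h | h | h <;> rw [h] at hk
    · rw [pow_zero] at hk
      exact absurd (conj_eq_one_iff.1 hk.symm) (fun e1 => by rw [e1, orderOf_one] at hx; omega)
    · exact hk.symm.trans (pow_one _)
    · have h2 : a * (x : G) ^ 2 * a⁻¹ = x := by
        rw [← conj_pow, ← hk, ← pow_mul, show 2 * 2 = 3 + 1 by norm_num, pow_succ, hx3, one_mul]
      calc a * (x : G) * a⁻¹ = a * (a * (x : G) ^ 2 * a⁻¹) * a⁻¹ := by rw [h2]
        _ = a * (a * (a * (x : G) * a⁻¹) * a⁻¹) * a⁻¹ := by rw [hk]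
        _ = (a * a * a) * x * (a * a * a)⁻¹ := by group
        _ = x := by rw [show a * a * a = a ^ 3 by rw [pow_succ, pow_two], ha]; group
  obtain ⟨a, ha, b, hb, c, hc, habc⟩ := quat_three 31 inQ_negI
  have key : ∀ i : Idx, powI i 3 = 0 → Commute (e.symm (el i) : G) x := fun i hi =>
    mul_inv_eq_iff_eq_mul.1 (hcent _ (by
      rw [← SubmonoidClass.coe_pow, ← map_pow,
        show el i ^ 3 = 1 by rw [eq_iff, idx_pow, idx_el, idx_one, hi], map_one, Subgroup.coe_one]))
  have htprod : t = (e.symm (el a) : G) * e.symm (el b) * e.symm (el c) := by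
    have : (⟨t, htC⟩ : C) = e.symm (el a) * e.symm (el b) * e.symm (el c) := by
      apply e.injective
      rw [e_t e ht, map_mul, map_mul, e.apply_symm_apply, e.apply_symm_apply, e.apply_symm_apply,
        el_mul, el_mul, habc]
      rfl
    exact congrArg Subtype.val this
  have hcx : Commute t (x : G) := by
    rw [htprod]
    exact ((key a ha).mul_left (key b hb)).mul_left (key c hc)
  have hxx := hinv x x.2
  rw [hcx.eq, mul_assoc, htt, mul_one, eq_inv_iff_mul_eq_one, ← pow_two] at hxx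
  have := hx ▸ orderOf_dvd_of_pow_eq_one hxx
  norm_num at this

end CfsgLib.SuzukiType.ThreeQuot

namespace CfsgLib.SuzukiType

open CfsgLib.Involutions CfsgLib.Involutions.GLTwoThree

theorem m11_of_centralizer {N : Type*} [Group N] [Finite N] (h27 : ¬ 27 ∣ Nat.card N)
    (h9 : 9 ∣ Nat.card N) (t : N) (ht : orderOf t = 2)
    (hC : Nonempty (↥(Subgroup.centralizer ({t} : Set N)) ≃* GL (Fin 2) (ZMod 3))) :
    Cfsg.Spor.IsoM11 N ∧ Nat.card N = 7920 := by
  classical
  haveI := Fintype.ofFinite N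
  obtain ⟨e⟩ := hC
  have hO := ThreeQuot.pResidual_eq_top e ht h9 h27
  have hone : ∀ x : N, orderOf x = 2 → IsConj t x := fun x hx => isConj_involution e ht hO hx
  have hsimple := GLTwoThree.isSimpleGroup e ht hone
  rcases GLTwoThree.card_eq e ht hO with h | h
  · exact absurd (h ▸ (by norm_num : 27 ∣ 5616)) h27
  · exact ⟨CfsgLib.Mathieu.Order7920.nonempty_mulEquiv ⟨hsimple, h⟩
      CfsgLib.OrderDegrees.M11NSE.isM11_sporM11, h⟩

end CfsgLib.SuzukiType
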